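import Cfsg.Agent.H2.A1
import Mathlib.Tactic.Group
import Mathlib.Algebra.Group.Subgroup.Finite

/-! Realising the model in a group. -/

set_option autoImplicit false

namespace Cfsg.Agent.H2.AM

variable {G : Type*} [Group G] {α β : Bool}

def p (g : G) (b : Bool) : G := cond b g 1

/-- generators and relations -/
structure Rel (α β : Bool) (z u1 u2 u3 u4 x y r s : G) : Prop where
  zz : z * z = 1
  c1 : u1 * z = z * u1
  c2 : u2 * z = z * u2
  c3 : u3 * z = z * u3
  c4 : u4 * z = z * u4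
  cx : x * z = z * x
  cy : y * z = z * y
  cr : r * z = z * r
  cs : s * z = z * s
  q1 : u1 * u1 = 1
  q2 : u2 * u2 = 1
  q3 : u3 * u3 = 1
  q4 : u4 * u4 = 1
  a12 : u2 * u1 = z * (u1 * u2)
  a13 : u3 * u1 = z * (u1 * u3)
  a14 : u4 * u1 = z * (u1 * u4)
  a23 : u3 * u2 = z * (u2 * u3)
  a24 : u4 * u2 = z * (u2 * u4)
  a34 : u4 * u3 = z * (u3 * u4)
  x1 : x * u1 = u2 * x
  x2 : x * u2 = u1 * x
  x3 : x * u3 = u4 * x
  x4 : x * u4 = u3 * x
  y1 : y * u1 = u4 * y
  y2 : y * u2 = u3 * y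
  y3 : y * u3 = u2 * y
  y4 : y * u4 = u1 * y
  r1 : r * u1 = u2 * r
  r2 : r * u2 = u3 * r
  r3 : r * u3 = u1 * r
  r4 : r * u4 = u4 * r
  s1 : s * u1 = u2 * s
  s2 : s * u2 = u1 * s
  s3 : s * u3 = u3 * s
  s4 : s * u4 = u4 * s
  xx : x * x = p z β
  yy : y * y = p z β
  yx : y * x = p z β * (x * y)
  rx : r * x = y * r
  ry : r * y = x * (y * r)
  rrr : r * (r * r) = 1
  sx : s * x = p z β * (x * s)
  sy : s * y = p z β * (x * (y * s))
  sr : s * r = r * (r * s)
  ss : s * s = p z α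

def pr (r : G) : T3 → G | .o => 1 | .p => r | .n => r * r

def ev (z u1 u2 u3 u4 x y r s : G) (w : W α β) : G :=
  p z w.e * (p u1 w.a * (p u2 w.b * (p u3 w.c * (p u4 w.d * (p x w.i * (p y w.j * (pr r w.l * p s w.m)))))))

variable {z u1 u2 u3 u4 x y r s g u v t : G}

theorem pz (h : g * z = z * g) (e : Bool) (t : G) : g * (p z e * t) = p z e * (g * t) := by
  cases e <;> simp [p, ← mul_assoc, h]

theorem ppz (h : g * z = z * g) (b e : Bool) (t : G) : p g b * (p z e * t) = p z e * (p g b * t) := by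
  cases b <;> simp only [p, cond_false, cond_true, one_mul]; exact pz h e t

theorem pzz (h : z * z = 1) (b e : Bool) (t : G) : p z b * (p z e * t) = p z (b ^^ e) * t := by
  cases b <;> cases e <;> simp [p, ← mul_assoc, h]

theorem pq (h : g * g = 1) (b : Bool) (t : G) : g * (p g b * t) = p g (!b) * t := by
  cases b <;> simp [p, ← mul_assoc, h]

theorem pa (h : g * u = z * (u * g)) (b : Bool) (t : G) : g * (p u b * t) = p z b * (p u b * (g * t)) := by
  cases b <;> simp [p, ← mul_assoc, h]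

theorem ppa (h : g * u = z * (u * g)) (b c : Bool) (t : G) :
    p g b * (p u c * t) = p z (b && c) * (p u c * (p g b * t)) := by
  cases b <;> cases c <;> simp [p, ← mul_assoc, h]

theorem pc (h : g * u = v * g) (b : Bool) (t : G) : g * (p u b * t) = p v b * (g * t) := by
  cases b <;> simp [p, ← mul_assoc, h]

namespace Rel

variable (h : Rel α β z u1 u2 u3 u4 x y r s)
include h

local notation "EV" => ev z u1 u2 u3 u4 x y r s

theorem lz (w : W α β) : z * EV w = EV w.lz := by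
  cases w; simp only [ev, W.lz, pq h.zz]

theorem l1 (w : W α β) : u1 * EV w = EV w.l1 := by
  cases w; simp only [ev, W.l1, pz h.c1, pq h.q1]

theorem l2 (w : W α β) : u2 * EV w = EV w.l2 := by
  cases w; simp only [ev, W.l2, pz h.c2, pq h.q2, pa h.a12, pzz h.zz, Bool.xor_comm]

theorem l3 (w : W α β) : u3 * EV w = EV w.l3 := by
  obtain ⟨e, a, b, c, d, i, j, l, m⟩ := w
  simp only [ev, W.l3, pz h.c3, pq h.q3, pa h.a13, pa h.a23, pzz h.zz, ppz h.c1]
  congr 2; revert e a b; decide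

theorem l4 (w : W α β) : u4 * EV w = EV w.l4 := by
  obtain ⟨e, a, b, c, d, i, j, l, m⟩ := w
  simp only [ev, W.l4, pz h.c4, pq h.q4, pa h.a14, pa h.a24, pa h.a34, pzz h.zz, ppz h.c1, ppz h.c2]
  congr 2; revert e a b c; decide

theorem kx (i : Bool) (t : G) : x * (p x i * t) = p z (β && i) * (p x (!i) * t) := by
  cases i <;> simp [p, ← mul_assoc, h.xx]

theorem lx (w : W α β) : x * EV w = EV w.lx := by
  obtain ⟨e, a, b, c, d, i, j, l, m⟩ := w
  simp only [ev, W.lx, pz h.cx, pc h.x1, pc h.x2, pc h.x3, pc h.x4, h.kx, ppa h.a12, ppa h.a34, pzz h.zz, ppz h.c1,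
    ppz h.c2, ppz h.c3, ppz h.c4]
  congr 2; generalize (β && i) = f; revert e a b c d f; decide

theorem ky (i j : Bool) (t : G) : y * (p x i * (p y j * t)) = p z (β && (i ^^ j)) * (p x i * (p y (!j) * t)) := by
  have h1 : ∀ t, y * (y * t) = p z β * t := fun t => by rw [← mul_assoc, h.yy]
  have h2 : ∀ t, y * (x * t) = p z β * (x * (y * t)) := fun t => by rw [← mul_assoc, h.yx, mul_assoc, mul_assoc]
  cases i <;> cases j <;>
    simp only [show ∀ g : G, p g false = 1 from fun _ => rfl, show p x true = x from rfl, show p y true = y from rfl,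
      one_mul, h1, h2, pz h.cx, pzz h.zz, Bool.not_false, Bool.not_true, Bool.xor_self, Bool.and_false,
      Bool.xor_false, Bool.false_xor, Bool.and_true]

theorem ly (w : W α β) : y * EV w = EV w.ly := by
  obtain ⟨e, a, b, c, d, i, j, l, m⟩ := w
  simp only [ev, W.ly, pz h.cy, pc h.y1, pc h.y2, pc h.y3, pc h.y4, h.ky, ppa h.a12, ppa h.a13, ppa h.a14, ppa h.a23,
    ppa h.a24, ppa h.a34, pzz h.zz, ppz h.c1, ppz h.c2, ppz h.c3, ppz h.c4]
  congr 2; generalize (β && (i ^^ j)) = f; revert e a b c d f; decide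

theorem kr (i j : Bool) (l : T3) (t : G) :
    r * (p x i * (p y j * (pr r l * t))) = p x j * (p y (i ^^ j) * (pr r l.suc * t)) := by
  have h0 : r * (pr r l * t) = pr r l.suc * t := by
    cases l <;> simp only [pr, T3.suc, one_mul, mul_assoc]
    rw [← mul_assoc r r t, ← mul_assoc, h.rrr, one_mul]
  have h1 : ∀ t, y * (y * t) = p z β * t := fun t => by rw [← mul_assoc, h.yy]
  have h2 : ∀ t, y * (x * t) = p z β * (x * (y * t)) := fun t => by rw [← mul_assoc, h.yx, mul_assoc, mul_assoc]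
  have h3 : ∀ t, r * (x * t) = y * (r * t) := fun t => by rw [← mul_assoc, h.rx, mul_assoc]
  have h4 : ∀ t, r * (y * t) = x * (y * (r * t)) := fun t => by rw [← mul_assoc, h.ry, mul_assoc, mul_assoc]
  cases i <;> cases j <;>
    simp only [show ∀ g : G, p g false = 1 from fun _ => rfl, show p x true = x from rfl, show p y true = y from rfl,
      one_mul, h0, h1, h2, h3, h4, pz h.cx, pzz h.zz, Bool.xor_self, Bool.xor_false, Bool.false_xor]

theorem lr (w : W α β) : r * EV w = EV w.lr := by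
  obtain ⟨e, a, b, c, d, i, j, l, m⟩ := w
  simp only [ev, W.lr, pz h.cr, pc h.r1, pc h.r2, pc h.r3, pc h.r4, h.kr, ppa h.a12, ppa h.a13, pzz h.zz, ppz h.c2]
  congr 2; revert e a b c; decide

theorem ks (i j : Bool) (l : T3) (m : Bool) : s * (p x i * (p y j * (pr r l * p s m))) =
    p z ((β && (i || j)) ^^ (α && m)) * (p x (i ^^ j) * (p y j * (pr r l.neg * p s (!m)))) := by
  have h5 : ∀ t, s * (r * t) = r * (r * (s * t)) := fun t => by rw [← mul_assoc, h.sr, mul_assoc, mul_assoc]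
  have h6 : ∀ t, r * (r * (r * t)) = t := fun t => by rw [← mul_assoc r r t, ← mul_assoc, h.rrr, one_mul]
  have h7 : s * p s m = p z (α && m) * p s (!m) := by cases m <;> simp [p, h.ss]
  have h0 : s * (pr r l * p s m) = p z (α && m) * (pr r l.neg * p s (!m)) := by
    cases l <;> simp only [pr, T3.neg, one_mul, mul_assoc, h5, h6, h7, pz h.cr]
  have h1 : ∀ t, x * (x * t) = p z β * t := fun t => by rw [← mul_assoc, h.xx]
  have h3 : ∀ t, s * (x * t) = p z β * (x * (s * t)) := fun t => by rw [← mul_assoc, h.sx, mul_assoc, mul_assoc]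
  have h4 : ∀ t, s * (y * t) = p z β * (x * (y * (s * t))) := fun t => by
    rw [← mul_assoc, h.sy, mul_assoc, mul_assoc, mul_assoc]
  generalize (α && m) = f at h0 ⊢
  cases i <;> cases j <;>
    simp only [show ∀ g : G, p g false = 1 from fun _ => rfl, show p x true = x from rfl, show p y true = y from rfl,
      one_mul, h0, h1, h3, h4, pz h.cx, pz h.cy, pzz h.zz, Bool.xor_self, Bool.xor_false, Bool.false_xor, Bool.or_self,
      Bool.and_false, Bool.and_true, Bool.or_true, Bool.true_or, Bool.false_or, Bool.or_false]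
  congr 2; cases β <;> cases f <;> rfl

theorem ls (w : W α β) : s * EV w = EV w.ls := by
  obtain ⟨e, a, b, c, d, i, j, l, m⟩ := w
  simp only [ev, W.ls, pz h.cs, pc h.s1, pc h.s2, pc h.s3, pc h.s4, h.ks, ppa h.a12, pzz h.zz, ppz h.c1, ppz h.c2,
    ppz h.c3, ppz h.c4]
  congr 2; generalize (β && (i || j)) = f; generalize (α && m) = f'; revert e a b f f'; decide

omit h in
theorem cd {L : W α β → W α β} (hL : ∀ w, g * EV w = EV (L w)) (b : Bool) (w : W α β) :
    p g b * EV w = EV (W.cd b L w) := by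
  cases b
  · exact one_mul _
  · exact hL w

theorem ev_mul (w w' : W α β) : EV (w * w') = EV w * EV w' := by
  obtain ⟨e, a, b, c, d, i, j, l, m⟩ := w
  have : ∀ w : W α β, pr r l * EV w = EV (W.cr l w) := fun w => by
    cases l <;> simp only [pr, W.cr, one_mul, mul_assoc, h.lr]
  change EV (W.cd _ _ _) = _
  rw [← cd h.lz, ← cd h.l1, ← cd h.l2, ← cd h.l3, ← cd h.l4, ← cd h.lx, ← cd h.ly, ← this, ← cd h.ls]
  simp only [ev, mul_assoc]

/-- the evaluation map on the fast model -/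
theorem f_mul (m n : M α β) : EV (W.dec (m * n).n : W α β) = EV (W.dec m.n : W α β) * EV (W.dec n.n : W α β) := by
  obtain ⟨m, hm⟩ := m
  obtain ⟨n, hn⟩ := n
  obtain ⟨k, a, ha, rfl⟩ : ∃ k a, a < 32 ∧ m = 32 * k + a := ⟨m / 32, m % 32, by omega, by omega⟩
  obtain ⟨l, v, hv, rfl⟩ : ∃ k a, a < 32 ∧ n = 32 * k + a := ⟨n / 32, n % 32, by omega, by omega⟩
  have c1 := chk1 α β
  have c2 := chk2 α β
  have c3 := chk3 α β
  have c4 := chk4 α β
  simp only [all_iff, decide_eq_true_eq] at c1 c2 c3 c4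
  have hk : k < 24 := by omega
  have hl : l < 24 := by omega
  obtain ⟨e1, -, -, e2, e3, -⟩ := c1 k hk a ha
  obtain ⟨e4, -, -, e5, -, e6⟩ := c1 l hl v hv
  obtain ⟨-, e7, e8, -⟩ := c1 k hk v hv
  obtain ⟨e9, e10⟩ := c2 a ha _ e8
  obtain ⟨e11, e12, e13⟩ := c3 k hk l hl
  have e14 := c4 (qq α β (32 * k) l / 32) (by omega) _ e10 _ e13
  rw [Nat.div_add_mod] at e14
  have e15 : mul α β (32 * k + a) (32 * l + v) = mE a (ac (32 * k) v) ^^^ qq α β (32 * k) l := by
    change mE ((32 * k + a) &&& 31) (ac ((32 * k + a) &&& 992) ((32 * l + v) &&& 31)) ^^^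
      qq α β ((32 * k + a) &&& 992) ((32 * l + v) >>> 5) = _
    rw [e2, e3, e5, e6]
  change EV (W.dec (mul α β (32 * k + a) (32 * l + v) % 768)) = EV (W.dec (32 * k + a)) * EV (W.dec (32 * l + v))
  rw [e15, Nat.mod_eq_of_lt e14.2, e14.1, e9, e11, ← e1, ← e4, (c4 k hk a ha 0 two_pos).1, (c4 l hl v hv 0 two_pos).1]
  simp only [h.ev_mul, add_zero, mul_assoc]
  rw [← mul_assoc (EV (W.dec (ac _ _))), ← h.ev_mul, e7, h.ev_mul, mul_assoc]

end Rel

end Cfsg.Agent.H2.AM
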