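import Cfsg.Agent.H2.A2
import Cfsg.Agent.H5.Extra32
import Cfsg.Agent.H9.Extra

/-! The extraspecial group `2^{1+4}_-` and its five singular points. -/

set_option autoImplicit false
set_option linter.unusedSectionVars false

namespace Cfsg.Agent.H2.AM

open Subgroup Cfsg.Agent.H5 Equiv

variable {G : Type*} [Group G] [Finite G] {E : Subgroup G} {z g h w : G}

structure Hyp (E : Subgroup G) (z : G) : Prop where
  es : H9.ES E z
  c32 : Nat.card E = 32
  nl : E.Normal
  cz : ∀ g, g * z = z * g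
  ce : ∀ g, (∀ w ∈ E, g * w = w * g) → g ∈ E
  n8 : ∀ a ∈ E, ∀ b ∈ E, a * a = 1 → b * b = 1 → a * b = b * a → a = 1 ∨ a = z ∨ b = 1 ∨ b = z ∨ b = a ∨ b = a * z

/-- pairwise anticommuting involutions -/
structure AC {ι : Type*} (E : Subgroup G) (u : ι → G) : Prop where
  mem : ∀ i, u i ∈ E
  sq : ∀ i, u i * u i = 1
  nc : ∀ i j, i ≠ j → u i * u j ≠ u j * u i

/-- action modulo `z` -/
def Act {ι : Type*} (z : G) (u : ι → G) (h : G) (σ : ι → ι) : Prop :=
  ∀ i, h * u i * h⁻¹ = u (σ i) ∨ h * u i * h⁻¹ = u (σ i) * z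

def nf (z : G) (u : Fin 4 → G) (x : Bool × Bool × Bool × Bool × Bool) : G :=
  p z x.1 * (p (u 0) x.2.1 * (p (u 1) x.2.2.1 * (p (u 2) x.2.2.2.1 * p (u 3) x.2.2.2.2)))

theorem p_mem (hg : g ∈ E) (b : Bool) : p g b ∈ E := by
  cases b
  · exact one_mem E
  · exact hg

theorem cform_p (w g : G) (b : Bool) : cform w (p g b) = cond b (cform w g) 0 := by
  cases b
  · exact cform_eq_zero.mpr (by simp [p])
  · rfl

theorem p_cform (w g : G) (b : Bool) : cform (p g b) w = cond b (cform g w) 0 := by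
  rw [cform_comm, cform_p, cform_comm]

theorem qform_p (hg : g * g = 1) (b : Bool) : qform (p g b) = 0 := by
  cases b
  · exact qform_eq_zero.mpr (by simp [p])
  · exact qform_eq_zero.mpr hg

namespace Hyp

variable (H : Hyp E z)
include H

theorem zz : z * z = 1 := H.es.sq

theorem exists_c {a b : G} (ha : a ∈ E) (hb : b ∈ E) : ∃ c ∈ E, c * a = a * c ∧ c * b = b * c ∧ c ≠ 1 ∧ c ≠ z := by
  have h2 : ∀ a ∈ E, (centralizer ({a} : Set G)).relIndex E ≤ 2 := fun a ha => by
    by_cases h : ∃ x ∈ E, x * a ≠ a * x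
    · obtain ⟨x, hx, h⟩ := h
      exact (H.es.relIndex_centralizer ha hx h).le
    · push Not at h
      rw [relIndex_eq_one.mpr fun x hx => mem_centralizer_singleton_iff.mpr (h x hx)]; norm_num
  by_contra hn
  push Not at hn
  have h1 := ((centralizer ({a} : Set G) ⊓ centralizer {b}).subgroupOf E).card_mul_index
  have h3 : ((centralizer ({a} : Set G) ⊓ centralizer {b}).subgroupOf E).index ≤ 2 * 2 :=
    relIndex_inf_le.trans (Nat.mul_le_mul (h2 a ha) (h2 b hb))
  have h4 : Nat.card ((centralizer ({a} : Set G) ⊓ centralizer {b}).subgroupOf E) ≤ 2 := by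
    rw [← card_map_of_injective E.subtype_injective, ← H.es.orderOf_eq, ← Nat.card_zpowers]
    refine card_le_of_le ?_
    rintro _ ⟨x, hx, rfl⟩
    by_cases e : (x : G) = 1
    · exact (show (x : G) ∈ zpowers z from e ▸ one_mem _)
    · exact hn x x.2 (mem_centralizer_singleton_iff.mp hx.1) (mem_centralizer_singleton_iff.mp hx.2) e ▸ mem_zpowers _
  rw [H.c32] at h1
  have := Nat.mul_le_mul h4 h3
  omega

theorem exists_ac : ∃ u : Fin 4 → G, AC E u := by
  have c := H.es.toC2
  have nz : ∀ {a b : G}, cform a b = 1 → a ≠ 1 ∧ a ≠ z := fun {a b} h =>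
    ⟨fun e => cform_eq_one.mp h (by simp [e]), fun e => cform_eq_one.mp h (by rw [e, H.cz])⟩
  obtain ⟨u1, m1, q1, n1⟩ : ∃ u ∈ E, qform u = 0 ∧ u ≠ 1 ∧ u ≠ z := by
    obtain ⟨a, ha, b, hb, hab⟩ := H.es.nonab
    obtain ⟨d, hd, h1, h2, h3⟩ := H.exists_c ha hb
    replace hab := cform_eq_one.mpr hab
    rw [← cform_eq_zero] at h1 h2
    rcases zmod_two_cases (qform a) with e1 | e1
    · exact ⟨a, ha, e1, nz hab⟩
    rcases zmod_two_cases (qform d) with e2 | e2
    · exact ⟨d, hd, e2, h3⟩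
    refine ⟨d * a, mul_mem hd ha, by rw [qform_mul H.es hd ha, e1, e2, h1]; rfl, nz (b := b) ?_⟩
    rw [mul_cform c hb hd ha, h2, hab, zero_add]
  obtain ⟨u2, m2, q2, a21⟩ : ∃ u ∈ E, qform u = 0 ∧ cform u u1 = 1 := by
    obtain ⟨w, hw, h⟩ := H.es.exists_not_comm m1 n1.1 n1.2
    replace h := cform_eq_one.mpr h
    rcases zmod_two_cases (qform w) with e1 | e1
    · exact ⟨w, hw, e1, h⟩
    · exact ⟨w * u1, mul_mem hw m1, by rw [qform_mul H.es hw m1, e1, q1, h]; rfl,
        by rw [mul_cform c m1 hw m1, h, cform_self, add_zero]⟩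
  have a12 := (cform_comm _ _).trans a21
  have q4 : ∀ d ∈ E, cform d u1 = 0 → cform d u2 = 0 → d ≠ 1 → d ≠ z → qform d = 1 := fun d hd h1 h2 h3 h4 => by
    refine qform_eq_one.mpr fun e => ?_
    rcases H.n8 d hd u1 m1 e (qform_eq_zero.mp q1) (cform_eq_zero.mp h1) with h | h | h | h | h | h
    · exact h3 h
    · exact h4 h
    · exact n1.1 h
    · exact n1.2 h
    · rw [← h, a12] at h2; exact one_ne_zero h2
    · rw [h, mul_cform c m2 hd c.mem, h2, cform_comm, cform_z c m2] at a12; exact absurd a12 (by decide)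
  obtain ⟨a, ha, h1, h2, h3, h4⟩ := H.exists_c m1 m2
  rw [← cform_eq_zero] at h1 h2
  obtain ⟨b, hb, h5, h6, h7⟩ : ∃ b ∈ E, cform b u1 = 0 ∧ cform b u2 = 0 ∧ cform b a = 1 := by
    obtain ⟨w, hw, h⟩ := H.es.exists_not_comm ha h3 h4
    replace h := cform_eq_one.mpr h
    have h1' := (cform_comm _ _).trans h1
    have h2' := (cform_comm _ _).trans h2
    rcases zmod_two_cases (cform w u1) with e1 | e1 <;> rcases zmod_two_cases (cform w u2) with e2 | e2
    · exact ⟨w, hw, e1, e2, h⟩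
    · refine ⟨w * u1, mul_mem hw m1, ?_⟩
      simp only [mul_cform c, *, cform_self]; decide
    · refine ⟨w * u2, mul_mem hw m2, ?_⟩
      simp only [mul_cform c, *, cform_self]; decide
    · refine ⟨w * (u1 * u2), mul_mem hw (mul_mem m1 m2), ?_⟩
      simp only [mul_cform c, mul_mem, *, cform_self]; decide
  have qa := q4 a ha h1 h2 h3 h4
  have qb := q4 b hb h5 h6 (nz h7).1 (nz h7).2
  have h1' := (cform_comm _ _).trans h1
  have h2' := (cform_comm _ _).trans h2
  have h5' := (cform_comm _ _).trans h5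
  have h6' := (cform_comm _ _).trans h6
  have h7' := (cform_comm _ _).trans h7
  refine ⟨![u1, u2, u1 * u2 * a, u1 * u2 * b], fun i => ?_, fun i => qform_eq_zero.mp ?_, fun i j h => cform_eq_one.mp ?_⟩
  · fin_cases i <;> simp [mul_mem, *]
  · fin_cases i <;> simp [qform_mul H.es, mul_cform c, mul_mem, *] <;> decide
  · fin_cases i <;> fin_cases j <;> simp at h <;> simp (maxDischargeDepth := 6) [cform_mul c, mul_cform c, mul_mem, cform_self, *] <;> decide

variable {u : Fin 4 → G} (A : AC E u)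
include A

theorem nf_mem (x : Bool × Bool × Bool × Bool × Bool) : nf z u x ∈ E := by
  simp (maxDischargeDepth := 8) only [nf, mul_mem, p_mem, A.mem, H.es.mem]

theorem cf (i j : Fin 4) : cform (u i) (u j) = if i = j then 0 else 1 := by
  split_ifs with h
  · rw [h, cform_self]
  · exact cform_eq_one.mpr (A.nc i j h)

theorem gen (hw : w ∈ E) : ∃ x, nf z u x = w := by
  have c := H.es.toC2
  have hi : Function.Injective fun x => (⟨nf z u x, H.nf_mem A x⟩ : E) := by
    rintro ⟨e, a, b, c', d⟩ ⟨e', a', b', c'', d'⟩ h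
    replace h := congrArg Subtype.val h
    have h1 := fun i => congrArg (cform (u i)) h
    simp (maxDischargeDepth := 8) only [nf, cform_mul c, mul_mem, p_mem, A.mem, c.mem, cform_p, H.cf A, cform_z c] at h1
    obtain ⟨rfl, rfl, rfl, rfl⟩ : a = a' ∧ b = b' ∧ c' = c'' ∧ d = d' := by
      clear h; revert h1 e e' a a' b b' c' c'' d d'; decide
    have h2 := mul_right_cancel h
    have := c.ne
    cases e <;> cases e' <;> simp_all [p]
  obtain ⟨x, hx⟩ := (hi.bijective_of_nat_card_le (by simp [H.c32])).2 ⟨w, hw⟩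
  exact ⟨x, congrArg Subtype.val hx⟩

theorem cent (hg : ∀ i, g * u i = u i * g) : g = 1 ∨ g = z := by
  have : ∀ w ∈ E, g * w = w * g := fun w hw => by
    obtain ⟨x, rfl⟩ := H.gen A hw
    have : ∀ a b, g * a = a * g → Commute g (p a b) := fun a b h => by
      cases b
      · exact Commute.one_right g
      · exact h
    exact (this _ _ (H.cz g)).mul_right ((this _ _ (hg 0)).mul_right ((this _ _ (hg 1)).mul_right
      ((this _ _ (hg 2)).mul_right (this _ _ (hg 3)))))
  exact H.es.center g (H.ce g this) fun q hq => (this q hq).symm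

theorem triv (hg : Act z u g id) : g ∈ E := by
  have h0 : g * z * g⁻¹ = z := by rw [H.cz, mul_inv_cancel_right]
  obtain ⟨w, hw, h⟩ := H.es.exists_inner h0 fun q hq => by
    obtain ⟨x, rfl⟩ := H.gen A hq
    have h1 : ∀ a b, (g * a * g⁻¹ = a ∨ g * a * g⁻¹ = a * z) → (g * p a b * g⁻¹ = p a b ∨ g * p a b * g⁻¹ = p a b * z) :=
      fun a b h => by
        cases b
        · exact Or.inl (by simp [p])
        · exact h
    have h2 : ∀ a b, (g * a * g⁻¹ = a ∨ g * a * g⁻¹ = a * z) → (g * b * g⁻¹ = b ∨ g * b * g⁻¹ = b * z) →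
        (g * (a * b) * g⁻¹ = a * b ∨ g * (a * b) * g⁻¹ = a * b * z) := fun a b h h' => by
      rw [← conj_mul]
      rcases h with h | h <;> rcases h' with h' | h' <;> rw [h, h']
      · exact Or.inl rfl
      · exact Or.inr (mul_assoc ..).symm
      · exact Or.inr (by rw [mul_assoc, ← H.cz, mul_assoc])
      · exact Or.inl (by rw [H.cz b, mul_assoc, ← mul_assoc z, H.zz, one_mul])
    exact h2 _ _ (h1 _ _ (Or.inl h0)) (h2 _ _ (h1 _ _ (hg 0)) (h2 _ _ (h1 _ _ (hg 1)) (h2 _ _ (h1 _ _ (hg 2))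
      (h1 _ _ (hg 3)))))
  have := H.ce (w⁻¹ * g) fun q hq => by
    rw [mul_assoc, mul_inv_eq_iff_eq_mul.mp (h q hq)]; group
  simpa using mul_mem hw this

theorem five : ∃ v : Fin 5 → G, AC E v ∧ (∀ i : Fin 4, v i.castSucc = u i) ∧
    ∀ w ∈ E, w * w = 1 → w = 1 ∨ w = z ∨ ∃ i, w = v i ∨ w = v i * z := by
  have c := H.es.toC2
  refine ⟨![u 0, u 1, u 2, u 3, u 0 * (u 1 * (u 2 * u 3))], ⟨fun i => ?_, fun i => qform_eq_zero.mp ?_,
    fun i j h => cform_eq_one.mp ?_⟩, fun i => by fin_cases i <;> rfl, fun w hw h => ?_⟩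
  · fin_cases i <;> simp (maxDischargeDepth := 6) [mul_mem, A.mem]
  · fin_cases i <;> simp (maxDischargeDepth := 6) [qform_mul H.es, cform_mul c, mul_mem, A.mem, H.cf A,
      qform_eq_zero.mpr (A.sq _)]; decide
  · fin_cases i <;> fin_cases j <;> simp at h <;> 
      simp (maxDischargeDepth := 6) [cform_mul c, mul_cform c, mul_mem, A.mem, H.cf A] <;> decide
  · obtain ⟨⟨e, a, b, c', d⟩, rfl⟩ := H.gen A hw
    rw [← qform_eq_zero] at h
    simp (maxDischargeDepth := 8) only [nf, qform_mul H.es, cform_mul c, mul_mem, p_mem, A.mem, c.mem, cform_p, qform_p H.zz, qform_p (A.sq _),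
      p_cform, H.cf A, cform_comm z, cform_z c] at h
    simp only [Fin.exists_fin_succ]
    cases e <;> cases a <;> cases b <;> cases c' <;> cases d <;> first | exact absurd h (by decide) | simp [nf, p, H.cz]

end Hyp

end Cfsg.Agent.H2.AM
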