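import Cfsg.Agent.H2.A1
import Mathlib.GroupTheory.Perm.Fin

/-! Finite checks for the model. -/

set_option autoImplicit false

namespace Cfsg.Agent.H2.AM

open Equiv

theorem fix5 : ∀ X : Perm (Fin 5), X * X = 1 → ∀ Y : Perm (Fin 5), Y * Y ≠ 1 → Y * Y * (Y * Y) = 1 →
    X * Y * (X * Y) * (X * Y) = 1 → ∃ i, X i = i ∧ Y i = i := by decide +kernel

def M.U {α β : Bool} (i : Fin 4) : M α β := ![M.mk' 2, M.mk' 4, M.mk' 8, M.mk' 16] i

theorem M.perms : ∀ (α β : Bool) (σ : Perm (Fin 4)), ∃ k : Fin 24,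
    ∀ i, (M.mk' (32 * k) : M α β) * M.U i = M.U (σ i) * M.mk' (32 * k) := by decide +kernel

theorem M.decs : ∀ (α β e a b c d : Bool), ∃ m : M α β, W.dec m.n = (⟨e, a, b, c, d, false, false, .o, false⟩ : W α β) := by
  decide +kernel

theorem M.decU : ∀ (α β : Bool) (i : Fin 4), W.dec (M.U i : M α β).n =
    (⟨false, i = 0, i = 1, i = 2, i = 3, false, false, .o, false⟩ : W α β) := by decide +kernel

theorem M.decz : ∀ (α β : Bool), W.dec (M.c 1 : M α β).n =
    (⟨true, false, false, false, false, false, false, .o, false⟩ : W α β) := by decide +kernel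

end Cfsg.Agent.H2.AM
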