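import Cfsg.Agent.H2.A3
import Cfsg.Agent.H2.A3b

/-! `H = 2^{1+4}_- . S₄` is one of the four model groups. -/

set_option autoImplicit false
set_option linter.unusedSectionVars false

namespace Cfsg.Agent.H2.AM

open Subgroup Cfsg.Agent.H5 Equiv

variable {G : Type*} [Group G] [Finite G] {E : Subgroup G} {z g h w : G}

namespace Hyp

variable (H : Hyp E z)
include H

theorem pm {a b c : G} (h1 : a = b ∨ a = b * z) (h2 : a = c ∨ a = c * z) : b = c ∨ b = c * z := by
  rcases h1 with rfl | rfl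
  · exact h2
  · rcases h2 with h | h
    · exact Or.inr (by rw [← h, mul_assoc, H.zz, mul_one])
    · exact Or.inl (mul_right_cancel h)

theorem uniq {ι : Type*} {v : ι → G} (A : AC E v) {a : G} {i j : ι} (h1 : a = v i ∨ a = v i * z)
    (h2 : a = v j ∨ a = v j * z) : i = j := by
  by_contra hn
  rcases H.pm h1 h2 with h | h
  · exact A.nc i j hn (by rw [h])
  · exact A.nc i j hn (by rw [h, mul_assoc, ← H.cz])

theorem act_mul {ι : Type*} {v : ι → G} {σ τ : ι → ι} (h1 : Act z v g σ) (h2 : Act z v h τ) :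
    Act z v (g * h) (σ ∘ τ) := fun i => by
  have : g * h * v i * (g * h)⁻¹ = g * (h * v i * h⁻¹) * g⁻¹ := by group
  have e : g * z * g⁻¹ = z := by rw [H.cz, mul_inv_cancel_right]
  rw [this]
  rcases h2 i with h' | h' <;> rw [h']
  · exact h1 _
  · rw [← conj_mul, e]
    rcases h1 (τ i) with h | h <;> rw [h]
    · exact Or.inr rfl
    · exact Or.inl (by rw [mul_assoc, H.zz, mul_one]; rfl)

theorem rho {ι : Type*} {v : ι → G} (A : AC E v) (he : ∀ g, ∃ σ, Act z v g σ) :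
    ∃ ρ : G →* Perm ι, (∀ g, Act z v g (ρ g)) ∧ E ≤ ρ.ker := by
  choose σ hσ using he
  letI : MulAction G ι :=
    { smul := σ
      one_smul := fun i => H.uniq A (hσ 1 i) (Or.inl (by simp))
      mul_smul := fun g h i => H.uniq A (hσ (g * h) i) (H.act_mul (hσ g) (hσ h) i) }
  exact ⟨MulAction.toPermHom G ι, hσ, fun g hg => Equiv.ext fun i => H.uniq A (hσ g i) (H.es.conj_eq hg (A.mem i))⟩

theorem basis [E.Normal] (e : G ⧸ E ≃* Perm (Fin 4)) :
    ∃ u : Fin 4 → G, AC E u ∧ ∀ g, ∃ σ, Act z u g σ := by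
  obtain ⟨u, A⟩ := H.exists_ac
  obtain ⟨v, B, h1, h2⟩ := H.five A
  obtain ⟨ρ, hρ, hk⟩ := H.rho B fun g => by
    have : ∀ i, ∃ j, g * v i * g⁻¹ = v j ∨ g * v i * g⁻¹ = v j * z := fun i => by
      have hi := B.nc i (i + 1) (by revert i; decide)
      refine ((h2 _ (H.nl.conj_mem _ (B.mem i) g) (by rw [conj_mul, B.sq]; group)).resolve_left fun e => hi ?_).resolve_left
        fun e => hi ?_
      · rw [conj_eq_one_iff.mp e]; simp
      · rw [show v i = z by rw [← mul_left_inj g⁻¹, ← mul_right_inj g, ← mul_assoc, e, ← mul_assoc, H.cz,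
          mul_inv_cancel_right], H.cz]
    exact ⟨_, fun i => (this i).choose_spec⟩
  let φ := (QuotientGroup.lift E ρ hk).comp e.symm.toMonoidHom
  have hφ : Function.Injective φ := ((QuotientGroup.injective_lift_iff _ _ hk).2 (le_antisymm hk fun g hg =>
    H.triv A fun i => by have := hρ g i.castSucc; rwa [MonoidHom.mem_ker.mp hg, Perm.one_apply, h1] at this)).comp
    e.symm.injective
  obtain ⟨i, hX, hY⟩ := fix5 (φ (swap 0 (finRotate 4 0))) (by rw [← map_mul, swap_mul_self, map_one]) (φ (finRotate 4))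
    (by rw [← map_mul, Ne, map_eq_one_iff _ hφ]; decide) (by simp only [← map_mul, map_eq_one_iff _ hφ]; decide)
    (by simp only [← map_mul, map_eq_one_iff _ hφ]; decide)
  have hi : ∀ g, ρ g i = i := fun g => by
    have : ⊤ ≤ (MulAction.stabilizer (Perm (Fin 5)) i).comap φ := by
      rw [← Perm.closure_cycle_adjacent_swap (isCycle_finRotate (n := 2)) support_finRotate 0, closure_le]
      rintro _ (rfl | rfl)
      · exact hY
      · exact hX
    simpa [φ] using this (mem_top (e (QuotientGroup.mk g)))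
  refine ⟨v ∘ i.succAbove, ⟨fun _ => B.mem _, fun _ => B.sq _, fun j k h => B.nc _ _ (i.succAbove_right_injective.ne h)⟩,
    fun g => ?_⟩
  have : ∀ j, ∃ k, i.succAbove k = ρ g (i.succAbove j) := fun j =>
    Fin.exists_succAbove_eq fun e => i.succAbove_ne j ((ρ g).injective (e.trans (hi g).symm))
  exact ⟨fun j => (this j).choose, fun j => by simpa only [Function.comp, (this j).choose_spec] using hρ g _⟩

variable {u : Fin 4 → G} (A : AC E u)
include A

theorem exact {σ : Fin 4 → Fin 4} (hg : Act z u g σ) : ∃ k, ∀ i, k * u i = u (σ i) * k := by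
  have c := H.es.toC2
  have e : ∀ g, g * z * g⁻¹ = z := fun g => by rw [H.cz, mul_inv_cancel_right]
  have key : ∀ i g, Act z u g σ → ∃ k, Act z u k σ ∧ k * u i * k⁻¹ = u (σ i) ∧
      ∀ j, j ≠ i → k * u j * k⁻¹ = g * u j * g⁻¹ := fun i g hg => by
    rcases hg i with h | h
    · exact ⟨g, hg, h, fun _ _ => rfl⟩
    obtain ⟨w, hw, h1, h2⟩ : ∃ w ∈ E, w * u i ≠ u i * w ∧ ∀ j, j ≠ i → w * u j = u j * w := by
      refine ⟨u i * (u 0 * (u 1 * (u 2 * u 3))), by simp (maxDischargeDepth := 6) only [mul_mem, A.mem],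
        cform_eq_one.mp ?_, fun j hj => cform_eq_zero.mp ?_⟩ <;>
        simp (maxDischargeDepth := 6) only [mul_cform c, mul_mem, A.mem, H.cf A]
      · clear h; revert i; decide
      · clear h; revert i j; decide
    have h3 : ∀ a, g * w * a * (g * w)⁻¹ = g * (w * a * w⁻¹) * g⁻¹ := fun a => by group
    refine ⟨g * w, H.act_mul hg (τ := id) fun j => c.conj_eq hw (A.mem j), ?_, fun j hj => ?_⟩
    · rw [h3, c.conj_eq_of_ne hw (A.mem i) h1, ← conj_mul, h, e, mul_assoc, H.zz, mul_one]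
    · rw [h3, h2 j hj, mul_inv_cancel_right]
  obtain ⟨k0, a0, b0, -⟩ := key 0 g hg
  obtain ⟨k1, a1, b1, c1⟩ := key 1 k0 a0
  obtain ⟨k2, a2, b2, c2⟩ := key 2 k1 a1
  obtain ⟨k3, -, b3, c3⟩ := key 3 k2 a2
  refine ⟨k3, fun i => mul_inv_eq_iff_eq_mul.mp ?_⟩
  fin_cases i
  · exact (c3 0 (by decide)).trans ((c2 0 (by decide)).trans ((c1 0 (by decide)).trans b0))
  · exact (c3 1 (by decide)).trans ((c2 1 (by decide)).trans b1)
  · exact (c3 2 (by decide)).trans b2
  · exact b3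

theorem same {σ : Fin 4 → Fin 4} (hg : ∀ i, g * u i = u (σ i) * g) (hh : ∀ i, h * u i = u (σ i) * h) :
    ∃ b, g = p z b * h := by
  rcases H.cent A (g := h⁻¹ * g) fun i => by
    rw [mul_assoc, hg, ← mul_assoc, inv_mul_eq_iff_eq_mul.mpr (show u (σ i) = h * (u i * h⁻¹) by
      rw [← mul_assoc, hh, mul_inv_cancel_right]), mul_assoc] with e | e
  · exact ⟨false, by rw [← inv_mul_eq_one.mp e]; exact (one_mul _).symm⟩
  · exact ⟨true, by rw [inv_mul_eq_iff_eq_mul.mp e, H.cz]; rfl⟩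

theorem rel (hs : ∀ σ : Perm (Fin 4), ∃ k, ∀ i, k * u i = u (σ i) * k) :
    ∃ α β x y r s, Rel α β z (u 0) (u 1) (u 2) (u 3) x y r s := by
  have c := H.es.toC2
  have mu : ∀ {g h : G} {σ τ : Fin 4 → Fin 4}, (∀ i, g * u i = u (σ i) * g) → (∀ i, h * u i = u (τ i) * h) →
      ∀ i, g * h * u i = u (σ (τ i)) * (g * h) := fun h1 h2 i => by rw [mul_assoc, h2, ← mul_assoc, h1, mul_assoc]
  have sa : ∀ {g h : G} {σ τ : Fin 4 → Fin 4}, (∀ i, g * u i = u (σ i) * g) → (∀ i, h * u i = u (τ i) * h) →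
      (∀ i, σ i = τ i) → ∃ b, g = p z b * h := fun h1 h2 h3 => H.same A h1 fun i => by rw [h2, h3]
  have on : ∀ i, 1 * u i = u (id i) * 1 := fun i => by simp
  have pz' : ∀ b g, g * p z b = p z b * g := fun b g => by simpa using pz (H.cz g) b 1
  have pp : ∀ b, p z b * p z b = 1 := fun b => by cases b <;> simp [p, H.zz]
  have pe : ∀ b, p z b = 1 → b = false := fun b => by cases b <;> simp [p, c.ne]
  have pu : ∀ b i, p z b * u i = u (id i) * p z b := fun b i => (pz' b _).symm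
  obtain ⟨s, hs1⟩ := hs (swap 0 1)
  obtain ⟨α, ss⟩ := sa (mu hs1 hs1) on (by decide)
  obtain ⟨r, hr, rrr⟩ : ∃ r, (∀ i, r * u i = u (![1, 2, 0, 3] i) * r) ∧ r * (r * r) = 1 := by
    obtain ⟨r, hr⟩ := hs (swap 0 2 * swap 0 1)
    obtain ⟨b, h⟩ := sa (mu hr (mu hr hr)) on (by decide)
    refine ⟨p z b * r, fun i => (mu (pu b) hr i).trans (by congr 2; revert i; decide), ?_⟩
    simp only [mul_assoc, pz (H.cz r), ← mul_assoc (p z b) (p z b), pp, one_mul, h, mul_one]
  have ri : r⁻¹ = r * r := inv_eq_of_mul_eq_one_right rrr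
  have sr : s * r = r * (r * s) := by
    obtain ⟨b, h⟩ := sa (mu hs1 hr) (mu hr (mu hr hs1)) (by decide)
    have h1 : s * r * s⁻¹ = p z b * r⁻¹ := by rw [h, ri]; group
    have h2 : s * r * s⁻¹ * (s * r * s⁻¹ * (s * r * s⁻¹)) = 1 := by rw [conj_mul, conj_mul, rrr]; group
    simp only [h1, mul_assoc, pz (H.cz r⁻¹), ← mul_assoc (p z b) (p z b), pp, one_mul, ← mul_inv_rev, rrr] at h2
    rw [h, pe b (by simpa [mul_assoc, rrr] using h2)]; exact one_mul _
  have hri : ∀ i, r⁻¹ * u i = u (![1, 2, 0, 3] (![1, 2, 0, 3] i)) * r⁻¹ := by rw [ri]; exact mu hr hr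
  obtain ⟨x, hx, xy⟩ : ∃ x, (∀ i, x * u i = u (![1, 0, 3, 2] i) * x) ∧
      r * (r * x * r⁻¹) * r⁻¹ = x * (r * x * r⁻¹) := by
    obtain ⟨x, hx⟩ := hs (swap 0 1 * swap 2 3)
    obtain ⟨b, h⟩ := sa (mu (mu hr (mu (mu hr hx) hri)) hri) (mu hx (mu (mu hr hx) hri)) (by decide)
    refine ⟨p z b * x, fun i => (mu (pu b) hx i).trans (by congr 2; revert i; decide), ?_⟩
    simp only [mul_assoc, pz (H.cz _)] at h ⊢
    rw [h]
  obtain ⟨β, xx⟩ := sa (mu hx hx) on (by decide)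
  obtain ⟨δ, sx⟩ := sa (mu hs1 hx) (mu hx hs1) (by decide)
  have hy := mu (mu hr hx) hri
  obtain ⟨y, ey⟩ : ∃ y, y = r * x * r⁻¹ := ⟨_, rfl⟩
  rw [← ey] at xy hy
  rw [mul_one] at xx ss
  have cb : ∀ b g, g * p z b * g⁻¹ = p z b := fun b g => by rw [pz', mul_inv_cancel_right]
  have yy : y * y = p z β := by rw [ey, conj_mul, xx, cb]
  have ww : x * y * (x * y) = p z β := by rw [← xy, conj_mul, yy, cb]
  have yx : y * x = p z β * (x * y) := by
    rw [← mul_right_inj x, ← mul_left_inj y, pz (H.cz x), ← mul_assoc x x, xx, ← mul_assoc (p z β), pp, one_mul, yy,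
      ← ww]; group
  have rx : r * x = y * r := by rw [ey]; group
  have ry : r * y = x * (y * r) := by rw [← mul_assoc, ← xy]; group
  have sr' : s * r * s⁻¹ = r⁻¹ := by rw [sr, ri]; group
  have sx' : s * x * s⁻¹ = p z δ * x := by rw [sx]; group
  have r3 : ∀ t, r⁻¹ * t * r = r * (r * t * r⁻¹) * r⁻¹ := fun t => by
    rw [ri]; simp only [mul_assoc, rrr, mul_one]
  have sy : s * y * s⁻¹ = p z δ * (x * y) := by
    rw [← xy, ey, ← r3, ← conj_mul, ← conj_mul, ← conj_inv, sr', sx', inv_inv, pz (H.cz _), mul_assoc]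
  have db : δ = β := by
    have h1 : s * (x * y) * s⁻¹ = p z β * y := by
      rw [← conj_mul, sx', sy, mul_assoc, pz (H.cz x), ← mul_assoc, pp, one_mul, ← mul_assoc, xx]
    rw [← xy, ← conj_mul, ← conj_mul (b := s) (a := r), ← conj_inv, sr', sy, ← xy, inv_inv, pz (H.cz _), mul_assoc] at h1
    have h2 : r⁻¹ * (r * y * r⁻¹) * r = y := by group
    rw [h2, mul_left_inj] at h1
    have h3 := pe (δ ^^ β) (by have := pzz H.zz δ β 1; rwa [mul_one, mul_one, h1, pp, eq_comm] at this)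
    revert h3; cases δ <;> cases β <;> simp
  subst db
  have an : ∀ i j, i ≠ j → u i * u j = z * (u j * u i) := fun i j h => by
    rw [c.eq_of_ne (A.mem i) (A.mem j) (A.nc i j h), H.cz]
  exact ⟨α, δ, x, y, r, s, H.zz, H.cz _, H.cz _, H.cz _, H.cz _, H.cz _, H.cz _, H.cz _, H.cz _, A.sq _, A.sq _, A.sq _,
    A.sq _, an _ _ (by decide), an _ _ (by decide), an _ _ (by decide), an _ _ (by decide), an _ _ (by decide),
    an _ _ (by decide), hx 0, hx 1, hx 2, hx 3, hy 0, hy 1, hy 2, hy 3, hr 0, hr 1, hr 2, hr 3, hs1 0, hs1 1, hs1 2, hs1 3,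
    xx, yy, yx, rx, ry, rrr, sx, by rw [mul_inv_eq_iff_eq_mul.mp sy, mul_assoc, mul_assoc], sr, ss⟩

omit A in
theorem model [E.Normal] (e : G ⧸ E ≃* Perm (Fin 4)) :
    ∃ (α β : Bool) (_ : M.OK α β) (f : M α β ≃* G), f (M.c 1) = z := by
  obtain ⟨u, A, he⟩ := H.basis e
  obtain ⟨ρ, hρ, hk⟩ := H.rho A he
  have hk' : ρ.ker = E := le_antisymm (fun g hg => H.triv A fun i => by
    have := hρ g i; rwa [MonoidHom.mem_ker.mp hg] at this) hk
  have c24 : E.index = 24 := by rw [index_eq_card, Nat.card_congr e.toEquiv, Nat.card_perm]; simp [Nat.factorial]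
  have hr : ρ.range = ⊤ := by
    refine eq_top_of_card_eq _ ?_
    rw [← index_ker, hk', c24, Nat.card_perm]; simp [Nat.factorial]
  obtain ⟨α, β, x, y, r, s, R⟩ := H.rel A fun σ => by
    obtain ⟨g, rfl⟩ := MonoidHom.range_eq_top.mp hr σ
    exact H.exact A (hρ g)
  let f : M α β → G := fun m => ev z (u 0) (u 1) (u 2) (u 3) x y r s (W.dec m.n : W α β)
  have fm : ∀ m n, f (m * n) = f m * f n := R.f_mul
  have fu : ∀ i, f (M.U i) = u i := fun i => by
    simp only [f, M.decU α β i]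
    fin_cases i <;> simp [ev, p, pr]
  have hs : Function.Surjective f := fun g => by
    obtain ⟨m, hm⟩ : ∃ m : M α β, ∀ i, m * M.U i = M.U (ρ g i) * m := ⟨_, (M.perms α β (ρ g)).choose_spec⟩
    have h1 : ρ (f m) = ρ g := Equiv.ext fun i => H.uniq A (hρ _ i) (Or.inl (by
      rw [← fu, ← fm, hm, fm, fu, mul_inv_cancel_right]))
    obtain ⟨⟨e, a, b, c, d⟩, h2⟩ := H.gen A (hk'.le (show g * (f m)⁻¹ ∈ ρ.ker by simp [h1]))
    obtain ⟨n, hn⟩ := M.decs α β e a b c d
    refine ⟨n * m, ?_⟩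
    rw [fm, ← eq_mul_inv_iff_mul_eq, ← h2]
    simp only [f, hn, ev, nf, p, pr, cond_false, mul_one]
  have hb := hs.bijective_of_nat_card_le (by
    rw [Nat.card_eq_fintype_card, M.card, ← E.card_mul_index, H.c32, c24])
  haveI : M.OK α β := ⟨fun a b c => hb.1 (by simp only [fm, mul_assoc])⟩
  refine ⟨α, β, this, MulEquiv.ofBijective (MonoidHom.mk' f fm) hb, ?_⟩
  change f (M.c 1) = z
  simp only [f, M.decz α β]
  simp [ev, p, pr]

end Hyp

end Cfsg.Agent.H2.AM
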