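import Cfsg.Agent.H2.A1

/-! Finite checks in the model groups. -/

set_option autoImplicit false

namespace Cfsg.Agent.H2.AM.M

variable {α β : Bool}

def zz : M α β := c 1
def aa : M α β := c 30
def xx : M α β := c 32
def yy : M α β := c 64
def ss : M α β := c 128
def rr : M α β := c 256
def uu : M α β := c 16
def jj : M α β := c 136
def vv : M α β := c 2

def inS (m : M α β) : Prop := m.n < 128 ∧ m * aa = aa * m
def isX (m : M α β) : Prop := 32 ≤ m.n ∧ inS m ∧ m * m = 1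
def inA (m : M α β) : Prop := m.n < 128 ∧ (m.n % 32 < 2 ∨ 30 ≤ m.n % 32)

instance : DecidablePred (inS : M α β → Prop) := fun _ => inferInstanceAs (Decidable (_ ∧ _))
instance : DecidablePred (isX : M α β → Prop) := fun _ => inferInstanceAs (Decidable (_ ∧ _))
instance : DecidablePred (inA : M α β → Prop) := fun _ => inferInstanceAs (Decidable (_ ∧ _))

theorem cz : ∀ (α β : Bool) (m : M α β), m * zz = zz * m := by decide +kernel

theorem basic : ∀ α β : Bool, (zz * zz : M α β) = 1 ∧ (zz : M α β) ≠ 1 ∧ (aa : M α β) ≠ zz ∧ (xx : M α β) ≠ zz ∧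
    (aa * xx : M α β) = xx * aa ∧ ((yy * xx : M α β) = xx * yy ∨ β = true) ∧ (rr * aa : M α β) = aa * rr ∧ (rr : M α β) ≠ 1 ∧
    (rr * rr * rr : M α β) = 1 ∧ (vv * aa * vv⁻¹ : M α β) = aa * zz ∧ (aa * aa : M α β) = 1 := by decide +kernel

theorem sq_z : ∀ (α β : Bool) (t : M α β), t * t = 1 → ∃ n : M α β, n * n = zz ∧ n * t = t * n := by decide +kernel

theorem sq_S : ∀ (α β : Bool) (n : M α β), n * n * (n * n) = 1 → inS (n * n) := by decide +kernel

theorem inv_S : ∀ (α β : Bool) (t : M α β), inS t → t * t = 1 →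
    t = 1 ∨ t = zz ∨ t = aa ∨ t = aa * zz ∨ (isX t ∧ β = false) := by decide +kernel

theorem conj_X : ∀ (α : Bool) (t : M α false), isX t → ∃ k : M α false, k * t = xx * k := by decide +kernel

theorem prod_X : ∀ (α : Bool), isX (yy : M α false) ∧ isX (yy * aa : M α false) ∧ ∀ q : M α false, inS q → q * xx = xx * q →
    ∀ q' : M α false, inS q' → q' * xx = xx * q' → isX (q * q') ∨ isX (q * q' * xx) := by decide +kernel

theorem ord3 : ∀ (α β : Bool) (m : M α β), m * xx = xx * m → m * m * m = 1 → m = 1 := by decide +kernel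

theorem real : ∀ (α β : Bool), (ct fun n : M α β => n * aa = aa * n ∧ n * n = zz) ≤
    (ct fun n : M α β => n * aa = aa * n ∧ n * n = aa) → α = false ∧ β = false := by
  decide +kernel

abbrev M0 := M false false

theorem T_mul : ∀ m : M0, m.n < 256 → all (fun n => Nat.blt (mul false false m.n n) 256) 256 = true := by decide +kernel
theorem T_inv : ∀ m : M0, m.n < 256 → m⁻¹.n < 256 := by decide +kernel
theorem V_mul : ∀ m : M0, m.n < 128 → all (fun n => Nat.blt (mul false false m.n n) 128) 128 = true := by decide +kernel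
theorem V_inv : ∀ m : M0, m.n < 128 → m⁻¹.n < 128 := by decide +kernel
theorem A_mul : ∀ m : M0, inA m → ∀ n, inA n → inA (m * n) := by decide +kernel
theorem A_sq : ∀ m : M0, inA m → m * m = 1 ∧ inS m ∧ inS (vv * m * vv⁻¹) := by decide +kernel
theorem A_dec : ∀ m : M0, inS m → ∃ n, inA n ∧ inA (vv⁻¹ * (n * m) * vv) := by decide +kernel
theorem A_nl : ∀ m : M0, inS m → inS (vv⁻¹ * m * vv) ∧ ∀ n, inA n → inA (m * n * m⁻¹) := by decide +kernel
theorem A_ce : ∀ m : M0, inA m → ∀ n, inA n → m * (vv * n * vv⁻¹) = vv * n * vv⁻¹ * m →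
    inA (vv⁻¹ * m * vv) ∨ inA (vv * n * vv⁻¹) := by decide +kernel

def cc (t : M0) : ℕ := ct fun n => n.n < 256 ∧ n * t = t * n ∧ n * n * (n * n) = 1

theorem cnts : (ct fun m : M0 => m.n < 256) = 256 ∧ (ct fun m : M0 => m.n < 128) = 128 ∧ ct (inA : M0 → Prop) = 16 ∧
    (ct fun m : M0 => inA m ∧ inA (vv⁻¹ * m * vv)) = 4 ∧ (ct fun m : M0 => m.n < 256 ∧ m * aa = aa * m) = 128 ∧
    cc jj = 16 ∧ cc uu = 24 ∧ cc ss = 24 ∧ cc xx = 32 ∧ cc aa = 80 ∧ cc zz = 144 := by decide +kernel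

theorem syl0 : ∀ t ∈ [(1 : M0), uu, ss, jj], ((ct fun m : M0 => m * t = t * m) = ct fun m : M0 => m.n < 256 ∧ m * t = t * m) ∨
    (ct fun m : M0 => m * t = t * m) = 3 * ct fun m : M0 => m.n < 256 ∧ m * t = t * m := by decide +kernel

theorem cent0 : ∀ t ∈ [(1 : M0), uu, ss, jj], ∀ w : M0, inS w → w * t = t * w →
    w = 1 ∨ w = zz ∨ ∃ m : M0, m.n < 256 ∧ m * t = t * m ∧ m * w ≠ w * m := by decide +kernel

theorem reps1 : ∀ t : M0, t.n < 128 → t * t = 1 → t = 1 ∨ ∃ k, k * t * k⁻¹ ∈ [zz, aa, xx, uu] := by decide +kernel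

theorem reps2 : ∀ t : M0, t.n < 256 → t * aa = aa * t → t * t = 1 → t = 1 ∨ ∃ k, k * t * k⁻¹ ∈ [zz, aa, xx, jj] := by
  decide +kernel

theorem cosets : ∀ t : M0, t.n < 256 → inS t ∨ inS (t * uu) ∨ inS (t * ss) ∨ inS (t * jj) := by decide +kernel

theorem cube : ∀ n : M0, inS n → ∃ k, n * rr * (n * rr) * (n * rr) = k * k := by decide +kernel

theorem cent_S : ∀ m : M0, inS m ∨ ∃ n, inS n ∧ n * m ≠ m * n := by decide +kernel

theorem basic0 : (uu * uu : M0) = 1 ∧ (ss * ss : M0) = 1 ∧ (jj * jj : M0) = 1 ∧ (uu : M0) ≠ 1 ∧ (ss : M0) ≠ 1 ∧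
    (jj : M0) ≠ 1 ∧ (vv * vv : M0) = 1 ∧ inS (zz : M0) ∧ inA (zz : M0) ∧ inA (vv⁻¹ * zz * vv : M0) := by decide +kernel

end Cfsg.Agent.H2.AM.M
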