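import Cfsg.Agent.H2.A5
import Cfsg.Agent.H2.L4g

/-! Fusion and transfer for `C(z) = 2^{1+4}_- . S₄`. -/

set_option autoImplicit false
set_option linter.unusedSectionVars false

namespace Cfsg.Agent.H2.AM

open Subgroup Cfsg.Agent.FT Cfsg.Agent.L0 Cfsg.Agent.H8 Cfsg.Agent.WA.GS Cfsg.Agent.WA.GS.C7 M
open Cfsg.Agent.H2.L4

universe u

variable {G : Type u} [Group G] [Finite G] {α β : Bool}

structure St [OK α β] (f : M α β →* G) : Prop where
  inj : Function.Injective f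
  sur : ∀ g, g * f zz = f zz * g → ∃ m, f m = g

theorem cj_comm {g a b : G} (h : a * b = b * a) : g * a * g⁻¹ * (g * b * g⁻¹) = g * b * g⁻¹ * (g * a * g⁻¹) := by
  rw [conj_mul, h, conj_mul]

namespace St

variable [OK α β] {f : M α β →* G} (h : St f) {g : G} {t : M α β}
include h

theorem comm {a b : M α β} : f a * f b = f b * f a ↔ a * b = b * a := by rw [← map_mul, ← map_mul, h.inj.eq_iff]

theorem ct_le {P Q : M α β → Prop} [DecidablePred P] [DecidablePred Q] (g : G)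
    (hg : ∀ m, P m → ∃ n, Q n ∧ f n = g * f m * g⁻¹) : ct P ≤ ct Q := by
  classical
  choose θ h1 h2 using hg
  rw [ct_eq, ct_eq]
  refine Finset.card_le_card_of_injOn (fun m => if hm : P m then θ m hm else m) (fun m hm => ?_) fun m hm n hn e => ?_
  · have hm : P m := by simpa using hm
    simpa [hm] using h1 m hm
  · have hm : P m := by simpa using hm
    have hn : P n := by simpa using hn
    simp only [hm, hn, dite_true] at e
    have := h2 m hm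
    rw [e, h2 n hn] at this
    exact h.inj (by simpa using this.symm)

theorem back (hg : g * f zz * g⁻¹ = f t) : ∃ t', g * f t' * g⁻¹ = f zz := by
  obtain ⟨t', e⟩ := h.sur (g⁻¹ * f zz * g) (by
    have := cj_comm (g := g⁻¹) (h.comm.mpr (cz α β t)).symm
    rwa [← hg, inv_inv, show g⁻¹ * (g * f zz * g⁻¹) * g = f zz by group] at this)
  exact ⟨t', by rw [e]; group⟩

theorem tt (hg : g * f zz * g⁻¹ = f t) : t * t = 1 ∧ t ≠ 1 :=
  ⟨h.inj (by rw [map_mul, ← hg, conj_mul, ← map_mul, (basic α β).1, map_one]; group), fun e => (basic α β).2.1 (h.inj (by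
    rwa [e, map_one, conj_eq_one_iff, ← map_one f] at hg))⟩

theorem inS_of (hg : g * f zz * g⁻¹ = f t) : inS t := by
  obtain ⟨t', e⟩ := h.back hg
  obtain ⟨n, h1, h2⟩ := sq_z α β t' (h.tt (g := g⁻¹) (by rw [← e]; group)).1
  obtain ⟨m, hm⟩ := h.sur (g * f n * g⁻¹) (by rw [← e]; exact cj_comm (h.comm.mpr h2))
  have : m * m = t := h.inj (by rw [map_mul, hm, conj_mul, ← map_mul, h1, hg])
  exact this ▸ sq_S α β m (by rw [this, (h.tt hg).1])

theorem cls (hg : g * f zz * g⁻¹ = f t) : t = zz ∨ (∃ k, k * t * k⁻¹ = aa) ∨ (isX t ∧ β = false) := by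
  rcases inv_S α β t (h.inS_of hg) (h.tt hg).1 with e | e | e | e | e
  · exact absurd e (h.tt hg).2
  · exact Or.inl e
  · exact Or.inr (Or.inl ⟨1, by simpa using e⟩)
  · exact Or.inr (Or.inl ⟨vv⁻¹, by rw [e, ← (basic α β).2.2.2.2.2.2.2.2.2.1]; group⟩)
  · exact Or.inr (Or.inr e)

theorem swap {t' k : M α β} (hg : g * f zz * g⁻¹ = f t) (h' : g * f t' * g⁻¹ = f zz) (hk : k * t' * k⁻¹ = t) :
    ∃ g, g * f zz * g⁻¹ = f t ∧ g * f t * g⁻¹ = f zz := by
  refine ⟨g * (f k)⁻¹, ?_, ?_⟩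
  · rw [← hg, mul_assoc g, ← map_inv, h.comm.mpr (cz α β k⁻¹), map_inv]; group
  · rw [← h', ← hk, map_mul, map_mul, map_inv]; group

omit h in
theorem cjm {k t' : M α β} (hk : k * t * k⁻¹ = t') : IsConj (f t) (f t') :=
  isConj_iff.mpr ⟨f k, by rw [← hk, map_mul, map_mul, map_inv]⟩

theorem fuse (hg : g * f zz * g⁻¹ = f t) (ht : t ≠ zz) : IsConj (f zz) (f aa) := by
  obtain ⟨b1, b2, b3, b4, b5, b6, b7, b8, b9, b10, b11⟩ := basic α β
  rcases h.cls hg with e | ⟨k, e⟩ | ⟨hx, rfl⟩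
  · exact absurd e ht
  · exact (isConj_iff.mpr ⟨g, hg⟩).trans (cjm e)
  have cx : ∀ t : M α false, isX t → IsConj (f t) (f xx) := fun t hx => by
    obtain ⟨k, e⟩ := conj_X α t hx
    exact cjm (mul_inv_eq_of_eq_mul e)
  have zx := (isConj_iff.mpr ⟨g, hg⟩).trans (cx t hx)
  obtain ⟨g, hg⟩ := isConj_iff.mp zx
  obtain ⟨t', e⟩ := h.back hg
  have e' : g⁻¹ * f zz * g⁻¹⁻¹ = f t' := by rw [← e]; group
  rcases h.cls e' with rfl | ⟨k, e1⟩ | ⟨hx, -⟩
  · exact absurd (h.inj (hg.symm.trans e)) b4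
  · exact (isConj_iff.mpr ⟨_, e'⟩).trans (cjm e1)
  obtain ⟨k, e1⟩ := conj_X α t' hx
  obtain ⟨g, h1, h2⟩ := h.swap hg e (mul_inv_eq_of_eq_mul e1)
  obtain ⟨p1, p2, p3⟩ := prod_X α
  have tr : ∀ m, isX m → m * xx = xx * m → ∃ q, f q = g * f m * g⁻¹ ∧ inS q ∧ q * xx = xx * q := fun m h3 h4 => by
    obtain ⟨q, hq⟩ := h.sur (g * f m * g⁻¹) (by rw [← h2]; exact cj_comm (h.comm.mpr h4))
    obtain ⟨l, hl⟩ := isConj_iff.mp ((zx.trans (cx m h3).symm).trans (isConj_iff.mpr ⟨g, hq.symm⟩))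
    exact ⟨q, hq, h.inS_of hl, h.comm.mp (by rw [hq, ← h1]; exact cj_comm (h.comm.mpr (cz _ _ m)))⟩
  have b6 := b6.resolve_right (by simp)
  obtain ⟨q, q1, q2, q3⟩ := tr yy p1 b6
  obtain ⟨q', q4, q5, q6⟩ := tr (yy * aa) p2 (by rw [mul_assoc, b5, ← mul_assoc, b6, mul_assoc])
  have e2 : f (q * q') = g * f aa * g⁻¹ := by rw [map_mul, q1, q4, conj_mul, ← map_mul, ← mul_assoc, p1.2.2, one_mul]
  rcases p3 q q2 q3 q' q5 q6 with e3 | e3
  · exact zx.trans ((cx _ e3).symm.trans (isConj_iff.mpr ⟨g, e2.symm⟩).symm)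
  · refine zx.trans ((cx _ e3).symm.trans (((cjm b10).trans (isConj_iff.mpr ⟨g, ?_⟩)).symm))
    rw [map_mul _ (q * q'), e2, ← h1, conj_mul, map_mul]

theorem exists_swap (hc : IsConj (f zz) (f aa)) : ∃ g, g * f zz * g⁻¹ = f aa ∧ g * f aa * g⁻¹ = f zz := by
  obtain ⟨b1, b2, b3, b4, b5, b6, b7, b8, b9, b10, b11⟩ := basic α β
  obtain ⟨g, hg⟩ := isConj_iff.mp hc
  obtain ⟨t', e⟩ := h.back hg
  have e' : g⁻¹ * f zz * g⁻¹⁻¹ = f t' := by rw [← e]; group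
  have e'' : g⁻¹ * f aa * g⁻¹⁻¹ = f zz := by rw [← hg]; group
  rcases h.cls e' with rfl | ⟨k, e1⟩ | ⟨hx, rfl⟩
  · exact absurd (h.inj (hg.symm.trans e)) b3
  · exact h.swap hg e e1
  obtain ⟨k, e1⟩ := conj_X α t' hx
  obtain ⟨m, hm⟩ := h.sur (g⁻¹ * f rr * g⁻¹⁻¹) (by rw [← e'']; exact cj_comm (h.comm.mpr b7))
  have h1 : m * t' = t' * m := h.comm.mp (by rw [hm, ← e']; exact cj_comm (h.comm.mpr (cz _ _ _)))
  have h2 : m * m * m = 1 := h.inj (by
    rw [map_mul, map_mul, hm, conj_mul, conj_mul, ← map_mul, ← map_mul, b9, map_one]; group)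
  have h3 := ord3 α false (k * m * k⁻¹) (by rw [← mul_inv_eq_of_eq_mul e1, conj_mul, h1, conj_mul])
    (by rw [conj_mul, conj_mul, h2]; group)
  rw [conj_eq_one_iff.mp h3, map_one, eq_comm, conj_eq_one_iff, map_eq_one_iff f h.inj] at hm
  exact absurd hm b8

theorem real (hc : IsConj (f zz) (f aa)) : α = false ∧ β = false := by
  obtain ⟨g, h1, h2⟩ := h.exists_swap hc
  refine M.real α β (h.ct_le g fun m hm => ?_)
  obtain ⟨n, hn⟩ := h.sur (g * f m * g⁻¹) (by rw [← h2]; exact cj_comm (h.comm.mpr hm.1))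
  exact ⟨n, ⟨h.comm.mp (by rw [hn, ← h1]; exact cj_comm (h.comm.mpr (cz _ _ m))),
    h.inj (by rw [map_mul, hn, conj_mul, ← map_mul, hm.2, h1])⟩, hn⟩

end St

end Cfsg.Agent.H2.AM
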