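import Cfsg.Agent.H2.A6
import Cfsg.Agent.H6.Transfer

/-! The real case: transfer. -/

set_option autoImplicit false
set_option linter.unusedSectionVars false

namespace Cfsg.Agent.H2.AM

open Subgroup Cfsg.Agent.FT Cfsg.Agent.L0 Cfsg.Agent.H8 Cfsg.Agent.WA.GS Cfsg.Agent.WA.GS.C7 M
open Cfsg.Agent.H2.L4
open Cfsg.Agent.H2.CI (mem_cj' cj_mem_cj)

universe u

variable {G : Type u} [Group G] [Finite G] [OK false false]

theorem lt_mul {k : ℕ} {m n : M0} (h : all (fun n => Nat.blt (mul false false m.n n) k) k = true) (hn : n.n < k) :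
    (m * n).n < k := (Nat.mod_le _ _).trans_lt (Nat.blt_eq.mp (all_iff.mp h _ hn))

def TT : Subgroup M0 := ⟨⟨⟨{m | m.n < 256}, fun ha hb => lt_mul (T_mul _ ha) hb⟩, show 0 < 256 by norm_num⟩, fun ha => T_inv _ ha⟩
def VV : Subgroup M0 := ⟨⟨⟨{m | m.n < 128}, fun ha hb => lt_mul (V_mul _ ha) hb⟩, show 0 < 128 by norm_num⟩, fun ha => V_inv _ ha⟩
def AA : Subgroup M0 := ⟨⟨⟨{m | inA m}, fun ha hb => A_mul _ ha _ hb⟩, show 0 < 128 ∧ (0 % 32 < 2 ∨ _) by norm_num⟩,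
  fun {a} ha => by rwa [inv_eq_of_mul_eq_one_right (A_sq a ha).1]⟩
def SS : Subgroup M0 := VV ⊓ 𝐂[aa]

theorem mem_SS {m : M0} : m ∈ SS ↔ inS m := and_congr Iff.rfl mem_centralizer_singleton_iff

theorem card_eq (X : Subgroup M0) (P : M0 → Prop) [DecidablePred P] (h : ∀ m, m ∈ X ↔ P m) : #|X| = ct P := by
  rw [Nat.card_congr (Equiv.subtypeEquivRight h), Nat.card_eq_fintype_card, Fintype.card_subtype, ct_eq]

theorem ty0 : Ty (AA ⊓ cj vv AA) AA (cj vv AA) SS := by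
  have c16 : #|AA| = 16 := (card_eq _ inA fun _ => Iff.rfl).trans cnts.2.2.1
  have nE : SS ≤ 𝐍(AA) := fun g hg => mem_normalizer_of_cj_le fun x hx => by
    obtain ⟨y, hy, rfl⟩ := mem_cj' hx
    exact (A_nl g (mem_SS.mp hg)).2 y hy
  refine ⟨(card_eq _ _ fun _ => and_congr Iff.rfl mem_cj).trans cnts.2.2.2.1, c16, by rw [card_cj, c16],
    fun e he => (A_sq e he).1, sq_cj (fun e he => (A_sq e he).1) _, rfl, le_antisymm (sup_le
      (fun e he => mem_SS.mpr (A_sq e he).2.1) fun x hx => ?_) fun m hm => ?_, nE, fun g hg => ?_, fun e he x hx h => ?_⟩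
  · obtain ⟨y, hy, rfl⟩ := mem_cj' hx
    exact mem_SS.mpr (A_sq y hy).2.2
  · obtain ⟨n, h1, h2⟩ := A_dec m (mem_SS.mp hm)
    exact (mul_mem_cancel_left (mem_sup_left (show n ∈ AA from h1))).mp (mem_sup_right (mem_cj.mpr h2))
  · rw [← cj_normalizer, mem_cj]
    exact nE (mem_SS.mpr (A_nl g (mem_SS.mp hg)).1)
  · obtain ⟨y, hy, rfl⟩ := mem_cj' hx
    exact (A_ce e he y hy h).imp (fun h => ⟨he, mem_cj.mpr h⟩) fun h => ⟨h, hx⟩

theorem cT : #|TT| = 256 := (card_eq _ (fun m => m.n < 256) fun _ => Iff.rfl).trans cnts.1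

theorem pgT : IsPGroup 2 TT := IsPGroup.of_card (n := 8) cT

theorem ST : SS ≤ TT := fun m hm => (show m.n < 128 from hm.1).trans (by norm_num)

namespace St

variable {f : M0 →* G} (h : St f) {g : G} {t t' : M0}
include h

theorem syl (ht : t ∈ [(1 : M0), uu, ss, jj]) : IsSylowIn 2 ((TT ⊓ 𝐂[t]).map f) 𝐂[f t] := by
  have h1 : IsSylowIn 2 (TT ⊓ 𝐂[t]) 𝐂[t] := by
    refine IsSylowIn.of_not_dvd_relIndex inf_le_right (pgT.to_le inf_le_left) ?_
    have h2 := relIndex_mul_card_of_le (inf_le_right : TT ⊓ 𝐂[t] ≤ _)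
    have h3 : 0 < #|(TT ⊓ 𝐂[t] : Subgroup M0)| := Nat.card_pos
    rw [card_eq 𝐂[t] _ fun _ => mem_centralizer_singleton_iff] at h2
    rw [card_eq (TT ⊓ 𝐂[t]) (fun m => m.n < 256 ∧ m * t = t * m)
      fun _ => and_congr Iff.rfl mem_centralizer_singleton_iff] at h2 h3
    rcases syl0 t ht with e | e <;> rw [e] at h2
    · rw [Nat.eq_of_mul_eq_mul_right h3 (h2.trans (one_mul _).symm)]; norm_num
    · rw [Nat.eq_of_mul_eq_mul_right h3 h2]; norm_num
  have h2 : (𝐂[t] : Subgroup M0).map f ≤ 𝐂[f t] := by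
    rintro _ ⟨m, hm, rfl⟩
    exact mem_centralizer_singleton_iff.mpr (h.comm.mpr (mem_centralizer_singleton_iff.mp hm))
  have h3 := (map_mono inf_le_right : (TT ⊓ 𝐂[t]).map f ≤ _).trans h2
  refine IsSylowIn.of_normalizer h3 ((h1.map f).of_le (le_inf h3 le_normalizer) fun g hg => ?_)
  obtain ⟨w, hw, e⟩ := (mem_normalizer_iff.mp hg.2 (f zz)).mp
    ⟨zz, ⟨ST (mem_SS.mpr basic0.2.2.2.2.2.2.2.1), mem_centralizer_singleton_iff.mpr (cz _ _ t).symm⟩, rfl⟩
  rcases cent0 t ht w (h.inS_of e.symm) (mem_centralizer_singleton_iff.mp hw.2) with e1 | rfl | ⟨m, h4, h5, h6⟩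
  · exact absurd e1 (h.tt e.symm).2
  · obtain ⟨m, rfl⟩ := h.sur g (mul_inv_eq_iff_eq_mul.mp e.symm)
    exact ⟨m, mem_centralizer_singleton_iff.mpr (h.comm.mp (mem_centralizer_singleton_iff.mp hg.1)), rfl⟩
  · obtain ⟨n, -, e1⟩ := (mem_normalizer_iff''.mp hg.2 (f m)).mp ⟨m, ⟨h4, mem_centralizer_singleton_iff.mpr h5⟩, rfl⟩
    refine absurd (h.comm.mp ?_) h6
    rw [e, show f m = g * f n * g⁻¹ by rw [e1]; group]
    exact cj_comm (h.comm.mpr (cz _ _ n))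

theorem sylT : IsSylowIn 2 (TT.map f) ⊤ := by
  have := h.syl (t := 1) (by simp)
  rwa [map_one, (centralizer_eq_top_iff_subset (s := {(1 : G)})).mpr (by simp [one_mem]),
    (centralizer_eq_top_iff_subset (s := {(1 : M0)})).mpr (by simp [one_mem]), inf_top_eq] at this

theorem cc_le (ht : t ∈ [(1 : M0), uu, ss, jj]) (hc : IsConj (f t') (f t)) : cc t' ≤ cc t := by
  obtain ⟨g, hg⟩ := isConj_iff.mp hc
  obtain ⟨k, hk, h1⟩ := cj_le_syl (h.syl ht) (pgroup_cj ((pgT.to_le (inf_le_left : TT ⊓ 𝐂[t'] ≤ _)).map f) g) (by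
    rw [← hg, ← cj_centralizer_singleton]
    refine cj_mono g ?_
    rintro _ ⟨m, hm, rfl⟩
    exact mem_centralizer_singleton_iff.mpr (h.comm.mpr (mem_centralizer_singleton_iff.mp hm.2)))
  refine h.ct_le (k * g) fun m hm => ?_
  obtain ⟨n, hn, e⟩ := h1 (conj_mem_cj k (conj_mem_cj g ⟨m, ⟨hm.1, mem_centralizer_singleton_iff.mpr hm.2.1⟩, rfl⟩))
  have e' : f n = k * g * f m * (k * g)⁻¹ := by rw [e]; group
  refine ⟨n, ⟨hn.1, mem_centralizer_singleton_iff.mp hn.2, h.inj ?_⟩, e'⟩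
  simp only [map_mul f n, map_mul f (n * n), e', conj_mul, ← map_mul, hm.2.2, map_one]; group

theorem transfer {X : Subgroup M0} (hX : X ≤ TT) (c : #|X| = 128) (t2 : t * t = 1) (t1 : t ≠ 1) {l : List M0}
    (h1 : ∀ m ∈ X, m * m = 1 → m = 1 ∨ ∃ k, k * m * k⁻¹ ∈ l) (h2 : ∀ m ∈ l, ¬ IsConj (f m) (f t)) :
    ∃ K : Subgroup G, K.index = 2 ∧ f t ∉ K := by
  have t2' : f t ^ 2 = 1 := by rw [pow_two, ← map_mul, t2, map_one]
  refine H6.exists_index_two_of_not_conj (H := TT.map f) (M := X.map f) (Nat.odd_iff.mpr ?_) ?_ ⟨1, t2'⟩ ?_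
    fun k g hk _ => ?_
  · have := h.sylT.not_dvd_relIndex
    rw [relIndex_top_right] at this; omega
  · have := relIndex_mul_card_of_le hX
    rw [relIndex_map_map_of_injective _ _ h.inj]
    rw [c, cT] at this; omega
  · rintro g ⟨m, hm, e⟩
    have e1 : IsConj (f t) (f m) := isConj_iff.mpr ⟨g⁻¹, by rw [e, inv_inv]⟩
    rcases h1 m hm (h.inj (by
      rw [map_mul, e, ← pow_two, ← inv_inv g, inv_inv g⁻¹, conj_pow, t2', map_one]; group)) with rfl | ⟨k, hk⟩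
    · exact t1 (h.inj (by simpa using e1))
    · exact h2 _ hk (e1.trans (cjm rfl)).symm
  · obtain ⟨k, rfl⟩ := Nat.exists_eq_succ_of_ne_zero hk.ne'
    rw [pow_succ', pow_mul, t2', one_pow, mul_one, inv_mul_cancel]; exact one_mem _

theorem exists_K : ∃ K : Subgroup G, K.Normal ∧ IsSylowIn 2 (SS.map f) K ∧ (∀ g, g * g ∈ K) := by
  obtain ⟨c1, c2, -, -, c3, c4, c5, c6, c7, c8, c9⟩ := cnts
  obtain ⟨b1, b2, b3, b4, b5, b6, -⟩ := basic0
  have nc : ∀ {t t' : M0}, t ∈ [(1 : M0), uu, ss, jj] → cc t < cc t' → ¬ IsConj (f t') (f t) :=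
    fun ht hlt hc => (h.cc_le ht hc).not_gt hlt
  have cX : #|(TT ⊓ 𝐂[aa] : Subgroup M0)| = 128 :=
    (card_eq _ _ fun _ => and_congr Iff.rfl mem_centralizer_singleton_iff).trans c3
  have rX : ∀ m ∈ (TT ⊓ 𝐂[aa] : Subgroup M0), m * m = 1 → m = 1 ∨ ∃ k, k * m * k⁻¹ ∈ [zz, aa, xx, jj] :=
    fun m hm => reps2 m hm.1 (mem_centralizer_singleton_iff.mp hm.2)
  obtain ⟨K1, i1, n1⟩ := h.transfer (X := VV) (fun m hm => (show m.n < 128 from hm).trans (by norm_num))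
    ((card_eq _ (fun m => m.n < 128) fun _ => Iff.rfl).trans c2) b3 b6 reps1 (by
      simp only [List.forall_mem_cons]
      exact ⟨nc (by simp) (by omega), nc (by simp) (by omega), nc (by simp) (by omega), nc (by simp) (by omega), by simp⟩)
  obtain ⟨K2, i2, n2⟩ := h.transfer inf_le_left cX b1 b4 rX (by
      simp only [List.forall_mem_cons]
      exact ⟨nc (by simp) (by omega), nc (by simp) (by omega), nc (by simp) (by omega),
        fun e => nc (by simp) (by omega) e.symm, by simp⟩)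
  obtain ⟨K3, i3, n3⟩ := h.transfer inf_le_left cX b2 b5 rX (by
      simp only [List.forall_mem_cons]
      exact ⟨nc (by simp) (by omega), nc (by simp) (by omega), nc (by simp) (by omega),
        fun e => nc (by simp) (by omega) e.symm, by simp⟩)
  haveI := normal_of_index_eq_two i1
  haveI := normal_of_index_eq_two i2
  haveI := normal_of_index_eq_two i3
  have sq : ∀ g, g * g ∈ K1 ⊓ (K2 ⊓ K3) := fun g =>
    ⟨mul_self_mem_of_index_two i1 g, mul_self_mem_of_index_two i2 g, mul_self_mem_of_index_two i3 g⟩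
  have hS : ∀ n, inS n → f n ∈ K1 ⊓ (K2 ⊓ K3) := fun n hn => by
    obtain ⟨k, e⟩ := cube n hn
    have h1 := sq (f k)
    rw [← map_mul, ← e, map_mul, map_mul f (n * rr), mul_mem_cancel_left (sq _), map_mul] at h1
    refine (mul_mem_cancel_right ?_).mp h1
    have := sq (f (rr * rr))
    rwa [← map_mul, ← mul_assoc, (basic _ _).2.2.2.2.2.2.2.2.1, one_mul] at this
  refine ⟨K1 ⊓ (K2 ⊓ K3), inferInstance, ?_, sq⟩
  have := h.sylT.inf_of_le_normalizer (N := K1 ⊓ (K2 ⊓ K3)) (by rw [normalizer_eq_top])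
  rw [top_inf_eq] at this
  convert this using 1
  refine le_antisymm (le_inf (map_mono ST) ?_) ?_
  · rintro _ ⟨m, hm, rfl⟩
    exact hS m (mem_SS.mp hm)
  · rintro _ ⟨⟨m, hm, rfl⟩, hK⟩
    have k : ∀ t, inS (m * t) → f t ∈ K1 ⊓ (K2 ⊓ K3) := fun t ht =>
      (mul_mem_cancel_left (show f m ∈ K1 ⊓ (K2 ⊓ K3) from hK)).mp (by rw [← map_mul]; exact hS _ ht)
    rcases cosets m hm with e | e | e | e
    · exact ⟨m, mem_SS.mpr e, rfl⟩
    · exact absurd (k _ e).2.1 n2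
    · exact absurd (k _ e).2.2 n3
    · exact absurd (k _ e).1 n1

end St

end Cfsg.Agent.H2.AM
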