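import Cfsg.Agent.H2.A4
import Cfsg.Agent.H2.A7
import Cfsg.Agent.H2.A8
import Cfsg.Agent.H6.Count
import Cfsg.Agent.L0.Char5

/-! Identification of `Aut(PGL₃(4))`. -/

set_option autoImplicit false
set_option linter.unusedSectionVars false

namespace Cfsg.Agent.H2.AM

open Subgroup Cfsg.Agent.FT Cfsg.Agent.L0 Cfsg.Agent.H8 Cfsg.Agent.WA.GS Cfsg.Agent.WA.GS.C7 M
open Cfsg.Agent.H2.L4

universe u

variable {G : Type u} [Group G] [Finite G]

theorem ty_sub {Z E U S K : Subgroup G} (p : Ty Z E U S) (hK : S ≤ K) :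
    Ty (Z.subgroupOf K) (E.subgroupOf K) (U.subgroupOf K) (S.subgroupOf K) := by
  have c : ∀ X ≤ S, #|X.subgroupOf K| = #|X| := fun X h => Nat.card_congr (subgroupOfEquivOfLe (h.trans hK)).toEquiv
  refine ⟨(c _ p.leZ).trans p.cZ, (c _ p.leE).trans p.cE, (c _ p.leU).trans p.cU, fun e he => Subtype.ext (p.sE e he),
    fun e he => Subtype.ext (p.sU e he), by rw [← p.inf]; rfl,
    by rw [← p.sup, subgroupOf_sup (p.leE.trans hK) (p.leU.trans hK)],
    fun g hg => le_normalizer_comap _ (p.nE hg), fun g hg => le_normalizer_comap _ (p.nU hg),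
    fun e he v hv h => p.ce0 e he v hv (congrArg Subtype.val h)⟩

theorem St.range {α β : Bool} [OK α β] {f : M α β →* G} (h : St f) : f.range = 𝐂[f zz] :=
  Subgroup.ext fun g => ⟨fun ⟨m, e⟩ => e ▸ mem_centralizer_singleton_iff.mpr (h.comm.mpr (cz _ _ m)),
    fun hg => h.sur g (mem_centralizer_singleton_iff.mp hg)⟩

theorem St.card {α β : Bool} [OK α β] {f : M α β →* G} (h : St f) : #|𝐂[f zz]| = 768 := by
  rw [← h.range, ← Nat.card_congr (MonoidHom.ofInjective h.inj).toEquiv, Nat.card_eq_fintype_card, M.card]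

theorem St.final [OK false false] {f : M0 →* G} (h : St f) (hO : pPrimeCore 2 G = ⊥) (hs : ¬ Group.IsSolvable G)
    {F : Type*} [Field F] [Fintype F] (hF : Fintype.card F = 4) :
    Nonempty (G ≃* MulAut (GL (Fin 3) F ⧸ center (GL (Fin 3) F))) := by
  obtain ⟨K, hK, hS, sq⟩ := h.exists_K
  have p := ty0.map h.inj
  rw [map_cj] at p
  obtain ⟨Z, eZ⟩ : ∃ Z, Z = (AA ⊓ cj vv AA).map f := ⟨_, rfl⟩
  obtain ⟨A, eA⟩ : ∃ A, A = AA.map f := ⟨_, rfl⟩
  rw [← eZ, ← eA] at p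
  have zZ : f zz ∈ Z := eZ ▸ ⟨zz, ⟨basic0.2.2.2.2.2.2.2.2.1, mem_cj.mpr basic0.2.2.2.2.2.2.2.2.2⟩, rfl⟩
  have v2 : cj (f vv) (cj (f vv) A) = A := by rw [← cj_mul, ← map_mul, basic0.2.2.2.2.2.2.1, map_one, cj_one]
  have sw : ∀ X : Subgroup G, K ⊓ 𝐍(X) ≤ 𝐍(Z) → K ⊓ 𝐍(cj (f vv) X) ≤ 𝐍(Z) := fun X hX => by
    have := cj_mono (f vv) hX
    rwa [cj_inf, cj_normalizer, cj_normalizer, cj_eq_self (H := K) (by rw [normalizer_eq_top]; trivial), ← p.inf, cj_inf,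
      v2, inf_comm (cj _ A), p.inf] at this
  have ns : ¬ Group.IsSolvable K := fun _ => by
    haveI : Group.IsSolvable (G ⧸ K) := Group.isSolvable_of_comm fun a b => by
      have h2 : ∀ a : G ⧸ K, a⁻¹ = a := fun a => inv_eq_of_mul_eq_one_right (by
        obtain ⟨a, rfl⟩ := QuotientGroup.mk_surjective a
        exact (QuotientGroup.eq_one_iff _).mpr (sq a))
      rw [← h2 (a * b), mul_inv_rev, h2, h2]
    exact hs (Group.isSolvable_of_ker_le_range K.subtype (QuotientGroup.mk' K) (by simp))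
  have res : ∀ X : Subgroup G, 𝐍(X.subgroupOf K) ≤ 𝐍(Z.subgroupOf K) → K ⊓ 𝐍(X) ≤ 𝐍(Z) := fun X hX g hg => by
    have := le_normalizer_map K.subtype ⟨⟨g, hg.1⟩, hX (le_normalizer_comap _ hg.2), rfl⟩
    rwa [map_subgroupOf_eq_of_le (p.leZ.trans hS.le)] at this
  have T : T2 (Z.subgroupOf K) (A.subgroupOf K) ((cj (f vv) A).subgroupOf K) ((SS.map f).subgroupOf K) :=
    ⟨ty_sub p hS.le, isSylowIn_top hS.toSylow, (map_eq_bot_iff_of_injective _ K.subtype_injective).mp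
      (eq_bot_iff.mpr (hO ▸ map_pPrimeCore_le_of_normal K)), fun e => ns (p.solv hS (res _ e) (sw _ (res _ e))),
      fun e => ns (p.solv hS (v2 ▸ sw _ (res _ e)) (res _ e))⟩
  obtain ⟨c1, c2⟩ := T.big
  let z : K := ⟨f zz, hS.le (p.leZ zZ)⟩
  have z1 : z ≠ 1 := fun e => (basic _ _).2.1 (h.inj ((congrArg Subtype.val e).trans (map_one f).symm))
  have z2 : z * z = 1 := T.p.sZ z zZ
  have e1 : H6.cl z = {t : K | t * t = 1 ∧ t ≠ 1} := Set.ext fun t => H6.mem_cl_iff.trans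
    ⟨fun ⟨c, e⟩ => e ▸ ⟨by rw [conj_mul, z2]; group, fun e => z1 (conj_eq_one_iff.mp e)⟩,
      fun ht => T.p.conj_z T.hS T.hE T.hU zZ z1 ht.1 ht.2⟩
  have e2 : H6.cl (f zz) = K.subtype '' H6.cl z := Set.ext fun t => ⟨fun ht => by
    obtain ⟨c, rfl⟩ := H6.mem_cl_iff.mp ht
    refine ⟨⟨_, hK.conj_mem _ z.2 c⟩, e1 ▸ ⟨Subtype.ext ?_, fun e => z1 (Subtype.ext ?_)⟩, rfl⟩
    · change c * f zz * c⁻¹ * (c * f zz * c⁻¹) = 1
      rw [conj_mul, show f zz * f zz = 1 from congrArg Subtype.val z2, mul_one, mul_inv_cancel]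
    · exact conj_eq_one_iff.mp (congrArg Subtype.val e), fun ⟨s, hs, e⟩ => e ▸ K.subtype.map_isConj hs⟩
  have cG := H6.ncard_cl_mul_card_centralizer (f zz)
  rw [e2, Set.ncard_image_of_injective _ K.subtype_injective, e1, c1, h.card] at cG
  have cK := H6.ncard_cl_mul_card_centralizer z
  rw [e1, c1] at cK
  have d1 : 64 ∣ #|𝐂[z]| := T.p.card ▸ card_dvd_of_le fun g hg =>
    mem_centralizer_singleton_iff.mpr (mem_centralizer_iff.mp (T.p.cent hg) z zZ).symm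
  have d2 : 3 ∣ #|𝐂[z]| := by
    obtain ⟨-, -, -, -, -, -, -, b1, b2, -⟩ := basic false false
    have := sq (f (rr * rr))
    rw [← map_mul, ← mul_assoc, b2, one_mul] at this
    have h3 : orderOf (⟨f rr, this⟩ : K) = 3 := by
      rw [← orderOf_coe, orderOf_injective f h.inj]
      exact orderOf_eq_prime (by rw [pow_three', b2]) b1
    exact h3 ▸ orderOf_dvd_natCard _ (mem_centralizer_singleton_iff.mpr (Subtype.ext (h.comm.mpr (cz _ _ _))))
  have d3 := Nat.le_of_dvd Nat.card_pos (Nat.Coprime.mul_dvd_of_dvd_of_dvd (by norm_num) d1 d2)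
  obtain ⟨φ, hφ⟩ := embed T.p T.hS T.hO hF
  have hψ : Function.Injective (MulAut.conjNormal : G →* MulAut K) := (injective_iff_map_eq_one _).mpr fun g hg => by
    have h1 : ∀ k ∈ K, g * k = k * g := fun k hk => mul_inv_eq_iff_eq_mul.mp
      (congrArg (fun σ : MulAut K => (σ ⟨k, hk⟩ : G)) hg)
    obtain ⟨m, rfl⟩ := h.sur g (h1 _ z.2)
    rcases cent_S m with e | ⟨n, hn, e⟩
    · have := T.core_bot.le (x := ⟨f m, hS.le ⟨m, mem_SS.mpr e, rfl⟩⟩) fun b => mem_normalizer_iff.mpr fun k => by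
        rw [show b * ⟨f m, hS.le ⟨m, mem_SS.mpr e, rfl⟩⟩ * b⁻¹ = ⟨f m, hS.le ⟨m, mem_SS.mpr e, rfl⟩⟩ from
          Subtype.ext (mul_inv_eq_of_eq_mul (h1 _ b.2).symm), show (⟨f m, hS.le ⟨m, mem_SS.mpr e, rfl⟩⟩ : K) * k *
          (⟨f m, hS.le ⟨m, mem_SS.mpr e, rfl⟩⟩ : K)⁻¹ = k from Subtype.ext (mul_inv_eq_of_eq_mul (h1 _ k.2))]
      exact congrArg Subtype.val (mem_bot.mp this)
    · exact absurd (h.comm.mp (h1 _ (hS.le ⟨n, mem_SS.mpr hn, rfl⟩))).symm e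
  haveI : Finite (MulAut K) := Finite.of_injective _ (DFunLike.coe_injective (F := K ≃* K))
  exact ⟨(MulEquiv.ofBijective _ (hψ.bijective_of_nat_card_le (by omega))).trans
    (MulAut.congr (MulEquiv.ofBijective φ (hφ.bijective_of_nat_card_le (by rw [card_pgl hF]; omega))))⟩

theorem e8 {z a b : G} (hz : orderOf z = 2) (a2 : a ^ 2 = 1) (b2 : b ^ 2 = 1) (za : Commute z a) (zb : Commute z b)
    (ab : Commute a b) (n1 : a ≠ 1) (n2 : a ≠ z) (n3 : b ≠ 1) (n4 : b ≠ z) (n5 : b ≠ a) (n6 : b ≠ a * z) :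
    ∃ A : Subgroup G, IsElementaryAbelian 2 A ∧ #|A| = 8 := by
  have z2 : z ^ 2 = 1 := hz ▸ pow_orderOf_eq_one z
  obtain ⟨h1, h2⟩ := H5.isElementaryAbelian_zpowers_sup_zpowers hz a2 (by rw [Dich.mem_zp_two z2]; tauto) za
  have hc : zpowers b ≤ 𝐂(zpowers z ⊔ zpowers a) := by
    rw [le_centralizer_iff, centralizer_zpowers]
    exact sup_le (zpowers_le.mpr (mem_centralizer_singleton_iff.mpr zb))
      (zpowers_le.mpr (mem_centralizer_singleton_iff.mpr ab))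
  refine ⟨_, H8.elemAb_sup h1 (H8.elemAb_zpowers b2) fun x hx y hy => hc hy x hx, ?_⟩
  rw [H5.card_sup_zpowers (p := 2) (centralizer_le_normalizer _ (hc (mem_zpowers b))) (fun h => ?_) (b2 ▸ one_mem _), h2]
  · rfl
  have hn : zpowers a ≤ 𝐍(zpowers z) := by
    refine le_trans ?_ (centralizer_le_normalizer _)
    rw [centralizer_zpowers]
    exact zpowers_le.mpr (mem_centralizer_singleton_iff.mpr za.symm)
  obtain ⟨x, hx, y, hy, rfl⟩ := (H5.mem_sup_of_le_normalizer_left hn).mp h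
  rcases (Dich.mem_zp_two z2).mp hx with rfl | rfl <;> rcases (Dich.mem_zp_two a2).mp hy with rfl | rfl <;>
    simp [za.eq] at *

end Cfsg.Agent.H2.AM
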