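import Cfsg.Agent.H2.A8
import Cfsg.Agent.H5.GWc4

/-! Parabolic complements and `2`-covers of `L₃(4)`. -/

set_option autoImplicit false
set_option linter.unusedSectionVars false

namespace Cfsg.Agent.H2.L4

open Subgroup Cfsg.Agent.FT Cfsg.Agent.L0 Cfsg.Agent.H8 Cfsg.Agent.WA.GS Cfsg.Agent.WA.GS.C7
open Cfsg.Agent.H2.CI (cjm cjm' ea_comm ea_pgroup inv_eq mem_cj' cj_mem_cj card_orbit)

universe u

variable {G : Type u} [Group G] [Finite G] {Z E U S D N W : Subgroup G} {g z : G}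

theorem gasch (hN : N ≤ 𝐍(E)) (h2 : ∀ e ∈ E, e * e = 1) (hES : E ≤ S) (hSN : S ≤ N) (ho : Odd (S.relIndex N))
    (hWE : ∀ x ∈ W, x ∈ E → x = 1) (hd : ∀ s ∈ S, ∃ e ∈ E, e⁻¹ * s ∈ W) : ∃ C ≤ N, C ⊓ E = ⊥ ∧ E ⊔ C = N := by
  haveI : (E.subgroupOf N).Normal := ⟨fun x hx g => cjm (V := E) (hN g.2) hx⟩
  obtain ⟨δ, d1, d2, d3⟩ := exists_cocycle (E := E.subgroupOf N) (S := S.subgroupOf N) (W := W.subgroupOf N)
    (fun e he => Subtype.ext (h2 e he)) (fun _ he => hES he) ho (fun x hx hx' => Subtype.ext (hWE x hx hx'))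
    fun s hs => let ⟨e, he, h⟩ := hd s hs; ⟨⟨e, hSN (hES he)⟩, he, h⟩
  have d0 : δ 1 = 1 := d3 1 (one_mem _)
  let C : Subgroup N :=
    { carrier := {g | δ g = 1}
      mul_mem' := fun {a b} (ha : δ a = 1) (hb : δ b = 1) => show δ (a * b) = 1 by rw [d2, ha, hb]; group
      one_mem' := d0
      inv_mem' := fun {a} (ha : δ a = 1) => show δ a⁻¹ = 1 by
        have := d2 a⁻¹ a
        rw [inv_mul_cancel, d0, ha] at this
        rw [this]; group }
  refine ⟨C.map N.subtype, map_subtype_le _, eq_bot_iff.mpr ?_, le_antisymm (sup_le (hES.trans hSN)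
    (map_subtype_le _)) fun g hg => ?_⟩
  · rintro _ ⟨⟨x, hx, rfl⟩, hx'⟩
    rw [← d3 x hx', show δ x = 1 from hx]; exact one_mem _
  · rw [← mul_inv_cancel_left (δ ⟨g, hg⟩ : G) g]
    refine mul_mem (mem_sup_left (d1 _)) (mem_sup_right ⟨(δ ⟨g, hg⟩)⁻¹ * ⟨g, hg⟩, ?_, rfl⟩)
    show δ _ = 1
    rw [d2, d3 _ (inv_mem (d1 _))]; group

theorem ncard_ne (X : Subgroup G) : ((X : Set G) \ {1}).ncard = #|X| - 1 := by
  rw [Set.ncard_diff_singleton_of_mem (one_mem X), ← Nat.card_coe_set_eq]; rfl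

namespace T2

variable (h : T2 Z E U S) (h1 : Nat.card G ∣ 60480) (h2 : Nat.card G ≠ 60480)
include h h1 h2

theorem cent_eq (hz : z ∈ Z) (z1 : z ≠ 1) : 𝐂[z] = S := by
  have c := card_orbit ⊤ z
  have : {w | ∃ g ∈ (⊤ : Subgroup G), g * z * g⁻¹ = w} = {t : G | t * t = 1 ∧ t ≠ 1} := Set.ext fun t =>
    ⟨by rintro ⟨g, -, rfl⟩; exact ⟨G0.sq_conj (h.p.sZ z hz) g, by simpa using z1⟩, fun ht =>
      let ⟨g, hg⟩ := h.p.conj_z h.hS h.hE h.hU hz z1 ht.1 ht.2; ⟨g, trivial, hg⟩⟩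
  rw [this, h.big.1, card_top, top_inf_eq] at c
  have hle : S ≤ 𝐂[z] := h.p.cent.trans (centralizer_le (Set.singleton_subset_iff.mpr hz))
  obtain ⟨m, hm⟩ := card_dvd_of_le hle
  refine (eq_of_le_of_card hle ?_).symm
  rw [c, hm, h.p.card] at h1 h2
  have h3 : m ∣ 3 := Nat.dvd_of_mul_dvd_mul_left (k := 20160) (by norm_num) (by convert h1 using 1; ring)
  rw [hm, h.p.card]
  rcases (Nat.dvd_prime Nat.prime_three).mp h3 with rfl | rfl <;> simp at h2 ⊢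

theorem a5 (hD : D ≤ 𝐍(E)) (hi : D ⊓ E = ⊥) (hs : E ⊔ D = 𝐍(E)) : IsSimpleGroup D ∧ #|D| = 60 := by
  classical
  have p := h.p
  obtain ⟨z, hz, z1⟩ := p.exists_z
  obtain ⟨n, hn, hn'⟩ := SetLike.not_le_iff_exists.mp h.hE
  have dec : ∀ k ∈ 𝐍(E), ∃ d ∈ D, ∃ e ∈ E, d * e = k := fun k hk =>
    (H9.mem_sup_of_le_normalizer hD).mp (by rwa [sup_comm, hs])
  have tr : ∀ w ∈ E, w ≠ 1 → ∃ d ∈ D, d * z * d⁻¹ = w := fun w hw w1 => by
    obtain ⟨k, hk, rfl⟩ := p.trans h.hS ⟨trivial, hn⟩ hn' (p.ZE hz) z1 hw w1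
    obtain ⟨d, hd, e, he, rfl⟩ := dec k hk.2
    exact ⟨d, hd, by rw [mul_assoc d e, p.comm he (p.ZE hz)]; group⟩
  have orb : ∀ L ≤ 𝐍(E), D ≤ L → #|L| = #|(L ⊓ S : Subgroup G)| * 15 := fun L l1 l2 => by
    rw [card_orbit L z, ← h.cent_eq h1 h2 hz z1, show 15 = #|E| - 1 by rw [p.cE], ← ncard_ne]
    congr 2
    exact Set.ext fun w => ⟨by rintro ⟨g, hg, rfl⟩; exact ⟨cjm (l1 hg) (p.ZE hz), by simpa using z1⟩,
      fun hw => let ⟨d, hd, e⟩ := tr w hw.1 hw.2; ⟨d, l2 hd, e⟩⟩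
  have c1 := card_sup_mul_card_inf_of_le_normalizer hD
  rw [sup_comm, hs, hi, card_bot, orb _ le_rfl hD, inf_eq_right.mpr p.nE, p.card, p.cE] at c1
  have c2 := orb D hD le_rfl
  have c3 : #|(D ⊓ 𝐍(Z) : Subgroup G)| = #|(D ⊓ S : Subgroup G)| * 3 := by
    rw [card_orbit _ z, show CI.Ce z = S from h.cent_eq h1 h2 hz z1, show 3 = #|Z| - 1 by rw [p.cZ], ← ncard_ne,
      inf_assoc, inf_eq_right.mpr (show S ≤ 𝐍(Z) from fun _ => p.nZ)]
    congr 1
    refine congrArg _ (Set.ext fun w => ⟨?_, fun hw => ?_⟩)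
    · rintro ⟨g, hg, rfl⟩; exact ⟨cjm hg.2 hz, by simpa using z1⟩
    · obtain ⟨d, hd, e⟩ := tr w (p.ZE hw.1) hw.2
      exact ⟨d, ⟨hd, (𝐍(Z)).inv_mem_iff.mp (p.ti h.hS (n := d⁻¹) ⟨trivial, (𝐍(E)).inv_mem (hD hd)⟩ hz z1
        (mem_cj.mpr (by simpa [e] using hw.1)))⟩, e⟩
  have cD : #|D| = 60 := by omega
  let B := (𝐍(Z)).subgroupOf D
  have cB : Nat.card (D ⧸ B) = 5 := by
    have := H9.card_inf_mul_relIndex (𝐍(Z)) D
    rw [inf_comm, c3, cD, show #|(D ⊓ S : Subgroup G)| = 4 by omega] at this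
    change _ * Nat.card (D ⧸ B) = _ at this
    omega
  have kA : ∀ k ∈ B.normalCore, (∃ m, (k : G) ^ 2 ^ m = 1) → k = 1 := fun k hk ⟨m, hm⟩ => by
    have k1 : ∀ d ∈ D, (k : G) ∈ 𝐂(H8.cj d Z) := fun d hd => by
      rw [← cj_centralizer, mem_cj]
      refine p.cent (h.two_le (H9.isPGroup_zpowers ⟨m, ?_⟩) (zpowers_le.mpr ?_) (mem_zpowers _))
      · rw [← inv_inv d, inv_inv d⁻¹, conj_pow, hm]; group
      · simpa using mem_subgroupOf.mp (hk ⟨d, hd⟩⁻¹)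
    obtain ⟨d, hd, e, he, rfl⟩ := dec n hn
    have hd' : d ∉ 𝐍(Z) := fun h => hn' (mul_mem h (p.nZ (p.leE he)))
    have : E ≤ 𝐂[(k : G)] := by
      rw [← p.sup_cj h.hS ⟨trivial, hD hd⟩ hd']
      exact sup_le (fun a ha => mem_centralizer_singleton_iff.mpr (k1 1 (one_mem _) a (by rwa [cj_one])))
        fun a ha => mem_centralizer_singleton_iff.mpr (k1 d hd a ha)
    exact Subtype.ext (hi.le ⟨k.2, h.cE fun a ha => mem_centralizer_singleton_iff.mp (this ha)⟩)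
  have kB : B.normalCore = ⊥ := eq_bot_iff.mpr fun k hk => kA k hk (by
    obtain ⟨u, hu, hu'⟩ := p.symm.exists_e
    obtain ⟨w, hw, e, he, rfl⟩ := dec u (p.nE (p.leU hu))
    have wS : w ∈ S := (mul_mem_cancel_right (p.leE he)).mp (p.leU hu)
    have w1 : w ≠ 1 := fun h => hu' (p.memZ (by rwa [h, one_mul]) hu)
    have w2 : w * w = 1 := hi.le ⟨mul_mem hw hw, p.ZE (p.sq wS)⟩
    have kZ : (k : G) ∈ 𝐍(Z) := normalCore_le B hk
    have c : k * (⟨w, hw⟩ * k⁻¹ * ⟨w, hw⟩⁻¹) = 1 := kA _ (mul_mem hk ((normalCore_normal _).conj_mem _ (inv_mem hk) _))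
      (let ⟨m, hm⟩ := p.pg ⟨k * w * (k : G)⁻¹ * w⁻¹, mul_mem (cjm (h.nZ_S kZ) wS) (inv_mem wS)⟩
      ⟨m, by simpa [mul_assoc] using congrArg Subtype.val hm⟩)
    obtain ⟨g, rfl⟩ := p.conj_z h.hS h.hE h.hU hz z1 w2 w1
    have : (k : G) ∈ H8.cj g S := by
      rw [← h.cent_eq h1 h2 hz z1, cj_centralizer_singleton, mem_centralizer_singleton_iff, ← mul_inv_eq_one, mul_inv_rev, ← mul_assoc]
      simpa [mul_assoc] using congrArg Subtype.val c
    obtain ⟨m, hm⟩ := (p.cj g).pg ⟨k, this⟩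
    exact ⟨m, congrArg Subtype.val hm⟩)
  rw [normalCore_eq_ker, MonoidHom.ker_eq_bot_iff] at kB
  haveI := Fintype.ofFinite (D ⧸ B)
  have c4 := (MulAction.toPermHom D (D ⧸ B)).range.card_mul_index
  rw [← Nat.card_congr (MonoidHom.ofInjective kB).toEquiv, cD, Nat.card_perm, cB] at c4
  haveI := alternatingGroup.isSimpleGroup cB.ge
  exact ⟨((MonoidHom.ofInjective kB).trans (MulEquiv.subgroupCongr (Equiv.Perm.eq_alternatingGroup_of_index_eq_two
    (by simp [Nat.factorial] at c4; omega)))).isSimpleGroup, cD⟩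

variable {X : Type*} [Group X] [Finite X] {π : X →* G} (hπ : Function.Surjective π) (hc : π.ker ≤ center X)
  (hk : ∀ y ∈ π.ker, y * y = 1)
include hπ hc hk

omit h1 h2 in
theorem lift_sq (x : X) (hx : π x * π x = 1) : x * x = 1 := by
  by_cases x1 : π x = 1
  · exact hk x x1
  obtain ⟨z, hz, z1⟩ := h.p.exists_z
  obtain ⟨b, rfl⟩ := hπ z
  have hb : b * b ∈ π.ker := by rw [MonoidHom.mem_ker, map_mul, h.p.sZ _ hz]
  have cc := fun y => mem_center_iff.mp (hc hb) y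
  have sq : ∀ y, π y * π y = 1 → π y ≠ 1 → y * y = b * b := fun y y2 y1 => by
    obtain ⟨g, hg⟩ := h.p.conj_z h.hS h.hE h.hU hz z1 y2 y1
    obtain ⟨g, rfl⟩ := hπ g
    have h3 : (g * b * g⁻¹)⁻¹ * y ∈ π.ker := by simp [MonoidHom.mem_ker, ← hg, mul_assoc]
    have h4 := hk _ h3
    have h5 := mem_center_iff.mp (hc h3) (g * b * g⁻¹)
    generalize hw : (g * b * g⁻¹)⁻¹ * y = w at h4 h5
    rw [inv_mul_eq_iff_eq_mul.mp hw, mul_assoc, ← mul_assoc w, ← h5, mul_assoc (g * b * g⁻¹) w, h4, mul_one,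
      show g * b * g⁻¹ * (g * b * g⁻¹) = g * (b * b) * g⁻¹ by group, cc, mul_inv_cancel_right]
  have cm : ∀ y d, π y ∈ E → π d ∈ E → π y ≠ 1 → π d ≠ 1 → π (y * d) ≠ 1 → d * y = y * d * (b * b) :=
    fun y d hy hd y1 d1 h1 => by
      have e1 := sq y (h.p.sE _ hy) y1
      have e2 := sq d (h.p.sE _ hd) d1
      have e3 := sq (y * d) (h.p.sE _ (by rw [map_mul]; exact mul_mem hy hd)) h1
      have e4 := hk _ hb
      generalize b * b = c at *
      calc d * y = y * (y * y)⁻¹ * (y * d * (y * d)) * (d * d)⁻¹ * d := by group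
        _ = y * d * c := by rw [e1, e2, e3, inv_eq e4, mul_assoc y, e4, mul_one, mul_assoc, ← cc, mul_assoc]
  obtain ⟨a, ha, d, hd, n1, n2, n3⟩ := h.p.exists_two
  obtain ⟨a, rfl⟩ := hπ a
  obtain ⟨d, rfl⟩ := hπ d
  have ne : ∀ w, w ∉ Z → w ≠ 1 := fun w hw e => hw (e ▸ one_mem _)
  have nb : ∀ w, w ∉ Z → π b * w ≠ 1 := fun w hw => ne _ fun e => hw ((mul_mem_cancel_left hz).mp e)
  have e1 := cm a d ha hd (ne _ n1) (ne _ n2) (by rw [map_mul]; exact ne _ n3)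
  have e2 := cm b d (h.p.ZE hz) hd z1 (ne _ n2) (by rw [map_mul]; exact nb _ n2)
  have e3 := cm (b * a) d (by rw [map_mul]; exact mul_mem (h.p.ZE hz) ha) hd (by rw [map_mul]; exact nb _ n1)
    (ne _ n2) (by rw [mul_assoc, map_mul, map_mul]; exact nb _ n3)
  rw [sq x hx x1]
  rw [← mul_assoc, e2, mul_assoc _ _ a, ← cc, ← mul_assoc, mul_assoc b d, e1, mul_left_inj, ← mul_assoc,
    ← mul_assoc b a] at e3
  simpa using e3

omit h1 h2 in
theorem lift_center : E.comap π ⊓ U.comap π =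
    (center ↥(E.comap π ⊔ U.comap π)).map (E.comap π ⊔ U.comap π).subtype := by
  have cm : ∀ {E U : Subgroup G}, T2 Z E U S → ∀ x ∈ E.comap π, E.comap π ≤ 𝐂[x] := fun h x hx y hy =>
    mem_centralizer_singleton_iff.mpr (ea_comm (fun a ha => h.lift_sq hπ hc hk a (h.p.sE _ ha)) hy hx)
  refine le_antisymm (fun x hx => ⟨⟨x, mem_sup_left hx.1⟩, mem_center_iff.mpr fun y => Subtype.ext
    (mem_centralizer_singleton_iff.mp (sup_le (cm h x hx.1) (cm h.symm x hx.2) y.2)), rfl⟩) ?_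
  rintro _ ⟨⟨x, hx⟩, hx', rfl⟩
  have k : ∀ {E' U' : Subgroup G}, T2 Z E' U' S → E'.comap π ≤ E.comap π ⊔ U.comap π → x ∈ E'.comap π :=
    fun h' hle => by
      obtain ⟨e, he, he'⟩ := h'.p.exists_e
      obtain ⟨e, rfl⟩ := hπ e
      refine h'.p.ce he he' (sup_le (comap_mono h.p.leE) (comap_mono h.p.leU) hx) ?_
      rw [← map_mul, ← map_mul]
      exact congrArg (fun y => π y.1) (mem_center_iff.mp hx' ⟨e, hle he⟩).symm
  exact ⟨k h le_sup_left, k h.symm le_sup_right⟩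

theorem lift_compl : ∃ C ≤ 𝐍(E.comap π), C ⊓ E.comap π = ⊥ ∧ E.comap π ⊔ C = 𝐍(E.comap π) ∧
    IsSimpleGroup C ∧ #|C| = 60 := by
  have p := h.p
  obtain ⟨W, d, -⟩ := Maschke_abelem (A := ⊥) (U := Z.comap π) (elem_of_sq fun a (ha : a ∈ U.comap π) =>
    h.lift_sq hπ hc hk a (p.sU _ ha)) (by rw [card_bot]; norm_num) (comap_mono p.ZU) bot_le bot_le
  have hW : W ≤ U.comap π := d.sup ▸ le_sup_right
  rw [← comap_normalizer_eq_of_surjective _ hπ]
  obtain ⟨C, c1, c2, c3⟩ := gasch (S := S.comap π) (W := W) (comap_normalizer_eq_of_surjective E hπ).le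
    (fun a ha => h.lift_sq hπ hc hk a (p.sE _ ha)) (comap_mono p.leE) (comap_mono p.nE)
    (by
      rw [relIndex_comap, map_comap_eq_self_of_surjective hπ, ← top_inf_eq (𝐍(E))]
      exact Dich.odd_iff.mpr (p.sylE h.hS).not_dvd_relIndex)
    (fun x hx hx' => d.inf.le ⟨p.memZ hx' (hW hx), hx⟩) fun s hs => by
      obtain ⟨e, he, u, hu, e1⟩ := p.dec hs
      obtain ⟨e, rfl⟩ := hπ e
      have : e⁻¹ * s ∈ Z.comap π ⊔ W := by
        rw [d.sup, mem_comap, map_mul, ← e1, map_inv, inv_mul_cancel_left]; exact hu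
      obtain ⟨a, ha, w, hw, e2⟩ := (H9.mem_sup_of_le_normalizer' fun _ h => cn (d.cent h)).mp this
      exact ⟨e * a, mul_mem he (p.ZE ha), by rw [mul_inv_rev, mul_assoc, ← e2]; simpa using hw⟩
  have hi : Function.Injective (π.subgroupMap C) := (injective_iff_map_eq_one _).mpr fun x hx =>
    Subtype.ext (c2.le ⟨x.2, show π x ∈ E by rw [show π x = 1 from congrArg Subtype.val hx]; exact one_mem _⟩)
  let e := MulEquiv.ofBijective _ ⟨hi, π.subgroupMap_surjective C⟩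
  obtain ⟨a1, a2⟩ := h.a5 h1 h2 (D := C.map π) (map_le_iff_le_comap.mpr c1) (eq_bot_iff.mpr <| by
    rintro _ ⟨⟨x, hx, rfl⟩, hx'⟩
    rw [show x = 1 from c2.le ⟨hx, hx'⟩, map_one]; exact one_mem _) (by
    rw [← map_comap_eq_self_of_surjective hπ (𝐍(E)), ← c3, Subgroup.map_sup, map_comap_eq_self_of_surjective hπ])
  exact ⟨C, c1, c2, c3, e.isSimpleGroup, by rw [Nat.card_congr e.toEquiv, a2]⟩

end T2

theorem Ty.t2 [IsSimpleGroup G] (p : Ty Z E U S) (hS : IsSylowIn 2 S ⊤) : T2 Z E U S := by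
  have hO : pPrimeCore 2 G = ⊥ := (IsSimpleGroup.eq_bot_or_eq_top_of_normal _ inferInstance).resolve_right fun e =>
    L0.not_dvd_card_pPrimeCore (p := 2) (G := G) (by
      rw [e]; exact (show 2 ∣ #|S| by rw [p.card]; norm_num).trans (card_dvd_of_le le_top))
  have k : ∀ {E U : Subgroup G}, Ty Z E U S → ¬ 𝐍(U) ≤ 𝐍(Z) := fun {E U} p hU => by
    have c1 := p.cE
    have c2 := p.cU
    have c3 := p.cZ
    rcases IsSimpleGroup.eq_bot_or_eq_top_of_normal E ⟨fun x hx g => cjm (p.normal hS hO hU g) hx⟩ with rfl | rfl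
    · simp at c1
    · rw [← p.inf, top_inf_eq] at c3; omega
  exact ⟨p, hS, hO, k p.symm, k p⟩

open Matrix in
theorem psl3 {F : Type*} [Field F] [Fintype F] (hF : Fintype.card F = 4)
    (e : G ≃* ProjectiveSpecialLinearGroup (Fin 3) F) (hS : IsSylowIn 2 S ⊤) :
    (∃ Z E U, Ty Z E U S) ∧ Nat.card G ∣ 60480 ∧ Nat.card G ≠ 60480 := by
  classical
  have hi := ProjectiveSpecialLinearGroup.toPGL_injective (n := Fin 3) (R := F)
  have c : Nat.card (ProjGenLinGroup (Fin 3) F) = 60480 := card_pgl hF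
  rw [Nat.card_congr e.toEquiv, ← c]
  refine ⟨?_, card_dvd_of_injective _ hi, fun h => ?_⟩
  · obtain ⟨P⟩ : Nonempty (Sylow 2 (ProjectiveSpecialLinearGroup (Fin 3) F)) := inferInstance
    obtain ⟨e2⟩ := Hs.sylow hF P
    have q := (Hs.ty hF).map (f := (e.symm.toMonoidHom.comp (P : Subgroup _).subtype).comp e2.toMonoidHom)
      ((e.symm.injective.comp Subtype.val_injective).comp e2.injective)
    have := (isSylowIn_top P).map e.symm.toMonoidHom
    rw [map_top_of_surjective _ e.symm.surjective, ← range_subtype P.1, MonoidHom.range_eq_map,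
      ← map_top_of_surjective e2.toMonoidHom e2.surjective, Subgroup.map_map, Subgroup.map_map] at this
    obtain ⟨k, -, rfl⟩ := this.exists_cj_eq hS
    exact ⟨_, _, _, q.cj k⟩
  · haveI : Finite (ProjGenLinGroup (Fin 3) F) := Nat.finite_of_card_ne_zero (by omega)
    have := ProjectiveSpecialLinearGroup.toPGL_surj_iff.mp ((Nat.bijective_iff_injective_and_card _).mpr ⟨hi, h⟩).2
    have c2 : Nat.card Fˣ = 3 := by rw [Nat.card_units, Nat.card_eq_fintype_card, hF]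
    haveI : Subsingleton Fˣ := ⟨fun a b => by
      obtain ⟨a, rfl⟩ := this a
      obtain ⟨b, rfl⟩ := this b
      rw [Fintype.card_fin, ← c2, pow_card_eq_one', pow_card_eq_one']⟩
    rw [Nat.card_unique] at c2
    omega

end Cfsg.Agent.H2.L4
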